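import Mathlib

/-!
# Four-groups normalised by an element of order three with a single cubic block: frames
-/

set_option autoImplicit false
set_option linter.unusedSectionVars false

namespace Cfsg.Lib.Cub

/-- The field with three elements. -/
abbrev K3 : Type := ZMod 3

variable {G V : Type*} [Group G] [AddCommGroup V] [Module K3 V] {ρ : Representation K3 G V}
  {b g h n q q₁ q₂ q₃ y : G} {a c d u v w v₁ v₂ v₃ : V}

theorem three (v : V) : v + v + v = 0 := by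
  have : ((1 : K3) + 1 + 1) • v = 0 := by rw [show (1 : K3) + 1 + 1 = 0 from rfl, zero_smul]
  simpa only [add_smul, one_smul] using this

theorem rmul (g h : G) (v : V) : ρ (g * h) v = ρ g (ρ h v) := by simp

theorem rone (v : V) : ρ 1 v = v := by simp

theorem rinv (g : G) (v : V) : ρ g⁻¹ (ρ g v) = v := by rw [← rmul, inv_mul_cancel, rone]

theorem rinv' (g : G) (v : V) : ρ g (ρ g⁻¹ v) = v := by rw [← rmul, mul_inv_cancel, rone]

theorem rinj (h : ρ g v = ρ g w) : v = w := by rw [← rinv (ρ := ρ) g v, h, rinv]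

theorem rne (h : v ≠ 0) : ρ g v ≠ 0 := fun e => h (rinj (e.trans (map_zero _).symm))

theorem rconj (g h : G) (v : V) : ρ (g * h * g⁻¹) (ρ g v) = ρ g (ρ h v) := by
  rw [rmul, rinv, rmul]

theorem rcomm (e : g * h = h * g) (v : V) : ρ g (ρ h v) = ρ h (ρ g v) := by rw [← rmul, e, rmul]

theorem eq_zero_of_neg (h : -v = v) : v = 0 := by
  linear_combination (norm := abel_nf) three v + h

theorem ind2 (h1 : ρ q a = a) (h2 : ρ q c = -c) (h : a + c = 0) : a = 0 ∧ c = 0 := by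
  have e : c = -a := (neg_eq_of_add_eq_zero_right h).symm
  rw [e, map_neg, h1, neg_neg] at h2
  have := eq_zero_of_neg h2
  exact ⟨this, by rw [e, this, neg_zero]⟩

theorem ind4 {a₀ a₁ a₂ a₃ : V} (h01 : ρ q₁ a₀ = a₀) (h02 : ρ q₂ a₀ = a₀) (h11 : ρ q₁ a₁ = a₁)
    (h12 : ρ q₂ a₁ = -a₁) (h21 : ρ q₁ a₂ = -a₂) (h22 : ρ q₂ a₂ = a₂) (h31 : ρ q₁ a₃ = -a₃)
    (h32 : ρ q₂ a₃ = -a₃) (h : a₀ + a₁ + a₂ + a₃ = 0) : a₀ = 0 ∧ a₁ = 0 ∧ a₂ = 0 ∧ a₃ = 0 := by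
  obtain ⟨k1, k2⟩ := ind2 (ρ := ρ) (q := q₁) (a := a₀ + a₁) (c := a₂ + a₃)
    (by rw [map_add, h01, h11]) (by rw [map_add, h21, h31, neg_add]) (by rw [← add_assoc, h])
  exact ⟨(ind2 h02 h12 k1).1, (ind2 h02 h12 k1).2, ind2 h22 h32 k2⟩

theorem split2 (h : q * q = 1) (v : V) : ∃ a c, ρ q a = a ∧ ρ q c = -c ∧ v = a + c ∧
    a = -(v + ρ q v) := by
  have e : ρ q (ρ q v) = v := by rw [← rmul, h, rone]
  refine ⟨_, -(v - ρ q v), ?_, ?_, ?_, rfl⟩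
  · rw [map_neg, map_add, e, add_comm]
  · rw [map_neg, map_sub, e, neg_sub, neg_sub, neg_sub]
  · linear_combination (norm := abel_nf) three v

theorem fix_of_pow {m : ℕ} (h : ρ (y ^ m) v = v) (hm : m.Coprime (orderOf y)) : ρ y v = v := by
  obtain ⟨k, hk⟩ := exists_pow_eq_self_of_coprime hm
  have : ∀ j : ℕ, ρ ((y ^ m) ^ j) v = v := fun j => by
    induction j with
    | zero => rw [pow_zero, rone]
    | succ j ih => rw [pow_succ, rmul, h, ih]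
  exact hk ▸ this k

theorem cube_fix (h : ρ y (ρ y v - v) = ρ y v - v) : ρ (y ^ 3) v = v := by
  have e : ρ y (ρ y v) = ρ y v + (ρ y v - v) := by rw [← h, map_sub]; abel
  rw [pow_succ, sq, rmul, rmul, e, map_add, e, h]
  linear_combination (norm := abel_nf) three (ρ y v - v)

/-- The action on coefficient pairs. -/
def mp (s t s' t' : K3) (p : K3 × K3) : K3 × K3 := (p.1 * s + p.2 * s', p.1 * t + p.2 * t')

theorem mp_26 : ∀ s t s' t' : K3, ∀ p, (mp s t s' t')^[26] p = (mp s t s' t')^[2] p := by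
  decide +kernel

theorem small (h6 : (orderOf y).Coprime 6) (h1 : ∃ s t : K3, ρ y a = s • a + t • c)
    (h2 : ∃ s t : K3, ρ y c = s • a + t • c) : ρ y a = a ∧ ρ y c = c := by
  obtain ⟨s, t, h1⟩ := h1
  obtain ⟨s', t', h2⟩ := h2
  have e : ∀ (m : ℕ) (p : K3 × K3), ρ (y ^ m) (p.1 • a + p.2 • c) =
      ((mp s t s' t')^[m] p).1 • a + ((mp s t s' t')^[m] p).2 • c := fun m => by
    induction m with
    | zero => intro p; rw [pow_zero, rone]; rfl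
    | succ m ih =>
      intro p
      rw [pow_succ, rmul, Function.iterate_succ_apply, ← ih, map_add, map_smul, map_smul, h1, h2]
      congr 1
      simp only [mp]
      module
  have k : ∀ p : K3 × K3, ρ y (p.1 • a + p.2 • c) = p.1 • a + p.2 • c := fun p =>
    fix_of_pow (m := 24) (rinj (ρ := ρ) (g := y ^ 2) (by rw [← rmul, ← pow_add, e, e, mp_26]))
      ((h6.pow_right 3).coprime_dvd_right (by norm_num)).symm
  exact ⟨by simpa using k (1, 0), by simpa using k (0, 1)⟩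

/-- `b - 1` has rank at most two. -/
def Rk (ρ : Representation K3 G V) (b : G) : Prop :=
  ∀ a c d : V, ∃ x y z : K3, ¬ (x = 0 ∧ y = 0 ∧ z = 0) ∧
    ρ b (x • a + y • c + z • d) = x • a + y • c + z • d

/-- `q` and its conjugates under `b` are the involutions of a four-group. -/
structure Tri (b q : G) : Prop where
  ne : q ≠ 1
  sq : q * q = 1
  prod : q * (b * q * b⁻¹) = b * (b * q * b⁻¹) * b⁻¹

/-- A frame. -/
structure Fr (ρ : Representation K3 G V) (b q₁ q₂ q₃ : G) (v₁ v₂ v₃ : V) : Prop where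
  rk : Rk ρ b
  c1 : b * q₁ * b⁻¹ = q₂
  c2 : b * q₂ * b⁻¹ = q₃
  c3 : b * q₃ * b⁻¹ = q₁
  s1 : q₁ * q₁ = 1
  p12 : q₁ * q₂ = q₃
  ne : v₁ ≠ 0
  b1 : ρ b v₁ = v₂
  b2 : ρ b v₂ = v₃
  b3 : ρ b v₃ = v₁
  e11 : ρ q₁ v₁ = v₁
  e21 : ρ q₂ v₁ = -v₁

theorem unit_cases : ∀ x : K3, x ≠ 0 → x = 1 ∨ x = -1 := by decide

namespace Fr

variable (F : Fr ρ b q₁ q₂ q₃ v₁ v₂ v₃)
include F

theorem e31 : ρ q₃ v₁ = -v₁ := by rw [← F.p12, rmul, F.e21, map_neg, F.e11]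

theorem rot : Fr ρ b q₂ q₃ q₁ v₂ v₃ v₁ where
  rk := F.rk
  c1 := F.c2
  c2 := F.c3
  c3 := F.c1
  s1 := by rw [← F.c1, conj_mul, F.s1]; simp
  p12 := by rw [← F.c3, ← F.p12, ← conj_mul, F.c1, F.c2, F.p12]
  ne := F.b1 ▸ rne F.ne
  b1 := F.b2
  b2 := F.b3
  b3 := F.b1
  e11 := by rw [← F.c1, ← F.b1, rconj, F.e11]
  e21 := by rw [← F.c2, ← F.b1, rconj, F.e21, map_neg]

theorem s2 : q₂ * q₂ = 1 := F.rot.s1
theorem s3 : q₃ * q₃ = 1 := F.rot.rot.s1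
theorem p21 : q₂ * q₁ = q₃ := by rw [← F.rot.p12, ← mul_assoc, F.s2, one_mul]
theorem com : q₁ * q₂ = q₂ * q₁ := F.p12.trans F.p21.symm
theorem e12 : ρ q₁ v₂ = -v₂ := F.rot.e31
theorem e22 : ρ q₂ v₂ = v₂ := F.rot.e11
theorem e32 : ρ q₃ v₂ = -v₂ := F.rot.e21
theorem e13 : ρ q₁ v₃ = -v₃ := F.rot.rot.e21
theorem e23 : ρ q₂ v₃ = -v₃ := F.rot.rot.e31
theorem e33 : ρ q₃ v₃ = v₃ := F.rot.rot.e11

theorem q1ne : q₁ ≠ 1 := fun e =>
  F.rot.ne (eq_zero_of_neg (by rw [← F.e12, e, rone]))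

theorem q12 : q₁ ≠ q₂ := fun e => F.rot.rot.q1ne (by rw [← F.p12, e, F.s2])

theorem cm3 (h1 : q₁ * g = g * q₁) (h2 : q₂ * g = g * q₂) : q₃ * g = g * q₃ := by
  rw [← F.p12, mul_assoc, h2, ← mul_assoc, h1, mul_assoc]

theorem ind {x y z : K3} (h1 : ρ q₁ w = w) (h2 : ρ q₂ w = w)
    (h : w + x • v₁ + y • v₂ + z • v₃ = 0) : w = 0 ∧ x = 0 ∧ y = 0 ∧ z = 0 := by
  obtain ⟨k0, k1, k2, k3⟩ := ind4 h1 h2 (by rw [map_smul, F.e11]) (by rw [map_smul, F.e21, smul_neg])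
    (by rw [map_smul, F.e12, smul_neg]) (by rw [map_smul, F.e22]) (by rw [map_smul, F.e13, smul_neg])
    (by rw [map_smul, F.e23, smul_neg]) h
  exact ⟨k0, (smul_eq_zero.1 k1).resolve_right F.ne, (smul_eq_zero.1 k2).resolve_right F.rot.ne,
    (smul_eq_zero.1 k3).resolve_right F.rot.rot.ne⟩

theorem line (h1 : ρ q₁ a = a) (h2 : ρ q₂ a = -a) : ∃ x : K3, a = x • v₁ := by
  obtain ⟨x, y, z, h0, h⟩ := F.rk v₁ v₂ a
  simp only [map_add, map_smul, F.b1, F.b2] at h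
  have h3 : ρ q₃ a = -a := by rw [← F.p12, rmul, h2, map_neg, h1]
  have a1 : ρ q₁ (ρ b a) = -ρ b a := by rw [← F.c3, rconj, h3, map_neg]
  have a2 : ρ q₂ (ρ b a) = ρ b a := by rw [← F.c1, rconj, h1]
  obtain ⟨-, k1, -, k3⟩ := ind4 (ρ := ρ) (q₁ := q₁) (q₂ := q₂) (a₀ := 0) (a₁ := -(x • v₁ + z • a))
    (a₂ := x • v₂ - y • v₂ + z • ρ b a) (a₃ := y • v₃) (map_zero _) (map_zero _)
    (by simp only [map_neg, map_add, map_smul, F.e11, h1])
    (by simp only [map_neg, map_add, map_smul, F.e21, h2]; module)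
    (by simp only [map_sub, map_add, map_smul, F.e12, a1]; module)
    (by simp only [map_sub, map_add, map_smul, F.e22, a2])
    (by rw [map_smul, F.e13, smul_neg]) (by rw [map_smul, F.e23, smul_neg])
    (by linear_combination (norm := module) h)
  have y0 := (smul_eq_zero.1 k3).resolve_right F.rot.rot.ne
  by_cases z0 : z = 0
  · rw [z0, zero_smul, add_zero, neg_eq_zero] at k1
    exact absurd ⟨(smul_eq_zero.1 k1).resolve_right F.ne, y0, z0⟩ h0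
  · rcases unit_cases z z0 with rfl | rfl
    · exact ⟨-x, by linear_combination (norm := module) -k1⟩
    · exact ⟨x, by linear_combination (norm := module) k1⟩

theorem fix0 (h1 : ρ q₁ w = w) (h2 : ρ q₂ w = w) : ρ b w = w := by
  obtain ⟨x, y, z, h0, h⟩ := F.rk v₁ v₂ w
  simp only [map_add, map_smul, F.b1, F.b2] at h
  have h3 : ρ q₃ w = w := by rw [← F.p12, rmul, h2, h1]
  have a1 : ρ q₁ (ρ b w) = ρ b w := by rw [← F.c3, rconj, h3]
  have a2 : ρ q₂ (ρ b w) = ρ b w := by rw [← F.c1, rconj, h1]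
  obtain ⟨k0, k1, -, k3⟩ := F.ind (w := z • (ρ b w - w)) (x := -x) (y := x - y) (z := y)
    (by simp only [map_sub, map_smul, a1, h1]) (by simp only [map_sub, map_smul, a2, h2])
    (by linear_combination (norm := module) h)
  exact sub_eq_zero.1 ((smul_eq_zero.1 k0).resolve_left fun z0 => h0 ⟨neg_eq_zero.1 k1, k3, z0⟩)

theorem plus (h1 : ρ q₁ u = u) : ∃ w, ∃ x : K3, ρ q₁ w = w ∧ ρ q₂ w = w ∧ u = w + x • v₁ := by
  obtain ⟨a, c, k1, k2, k3, k4⟩ := split2 (ρ := ρ) F.s2 u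
  have a1 : ρ q₁ a = a := by rw [k4, map_neg, map_add, rcomm F.com, h1]
  have c1 : ρ q₁ c = c := by rw [eq_sub_of_add_eq' k3.symm, map_sub, h1, a1]
  obtain ⟨x, hx⟩ := F.line c1 k2
  exact ⟨a, x, a1, k1, hx ▸ k3⟩

theorem minus (h1 : ρ q₁ u = -u) : ∃ y z : K3, u = y • v₂ + z • v₃ := by
  obtain ⟨a, c, k1, k2, k3, k4⟩ := split2 (ρ := ρ) F.s2 u
  have a1 : ρ q₁ a = -a := by rw [k4, map_neg, map_add, rcomm F.com, h1, map_neg]; abel
  have c1 : ρ q₁ c = -c := by rw [eq_sub_of_add_eq' k3.symm, map_sub, h1, a1]; abel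
  obtain ⟨y, hy⟩ := F.rot.line k1 (by rw [← F.p12, rmul, k1, a1])
  obtain ⟨z, hz⟩ := F.rot.rot.line (a := c) (by rw [← F.p12, rmul, k2, map_neg, c1, neg_neg]) c1
  exact ⟨y, z, hy ▸ hz ▸ k3⟩

theorem dec (v : V) : ∃ w, ∃ x y z : K3, ρ q₁ w = w ∧ ρ q₂ w = w ∧
    v = w + x • v₁ + y • v₂ + z • v₃ := by
  obtain ⟨a, c, k1, k2, k3, -⟩ := split2 (ρ := ρ) F.s1 v
  obtain ⟨w, x, h1, h2, h3⟩ := F.plus k1
  obtain ⟨y, z, h4⟩ := F.minus k2
  exact ⟨w, x, y, z, h1, h2, by rw [k3, h3, h4, add_assoc (w + _)]⟩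

theorem line' (h0 : a ≠ 0) (h1 : ρ q₁ a = a) (h2 : ρ q₂ a = -a) : a = v₁ ∨ a = -v₁ := by
  obtain ⟨x, hx⟩ := F.line h1 h2
  rcases unit_cases x (fun e => h0 (by rw [hx, e, zero_smul])) with rfl | rfl
  exacts [Or.inl (by rw [hx, one_smul]), Or.inr (by rw [hx, neg_smul, one_smul])]

theorem sgn (h1 : q₁ * g = g * q₁) (h2 : q₂ * g = g * q₂) : ρ g v₁ = v₁ ∨ ρ g v₁ = -v₁ :=
  F.line' (rne F.ne) (by rw [rcomm h1, F.e11]) (by rw [rcomm h2, F.e21, map_neg])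

/-- an invariant subspace is fixed by `b` or contains the frame -/
theorem inv_sub (N : Submodule K3 V) (h1 : ∀ v ∈ N, ρ q₁ v ∈ N) (h2 : ∀ v ∈ N, ρ q₂ v ∈ N)
    (h3 : ∀ v ∈ N, ρ b v ∈ N) : (∀ v ∈ N, ρ b v = v) ∨ ∀ v, ρ b v - v ∈ N := by
  by_cases k : v₁ ∈ N
  · right
    intro v
    obtain ⟨w, x, y, z, w1, w2, rfl⟩ := F.dec v
    have k2 := F.b1 ▸ h3 _ k
    have k3 := F.b2 ▸ h3 _ k2
    simp only [map_add, map_smul, F.b1, F.b2, F.b3, F.fix0 w1 w2]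
    convert N.add_mem (N.add_mem (N.smul_mem (z - x) k) (N.smul_mem (x - y) k2))
      (N.smul_mem (y - z) k3) using 1
    module
  · left
    have key : ∀ {q₁ q₂ q₃ : G} {v₁ v₂ v₃ : V}, Fr ρ b q₁ q₂ q₃ v₁ v₂ v₃ → (∀ v ∈ N, ρ q₁ v ∈ N) →
        (∀ v ∈ N, ρ q₂ v ∈ N) → v₁ ∉ N → ∀ v ∈ N, ρ q₁ v = v → ρ q₂ v = v := by
      intro q₁ q₂ q₃ v₁ v₂ v₃ F h1 h2 k v hv e
      obtain ⟨w, x, w1, w2, h⟩ := F.plus e
      have m := N.sub_mem (h2 v hv) hv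
      rw [h, map_add, map_smul, w2, F.e21] at m ⊢
      by_cases x0 : x = 0
      · simp [x0]
      · refine absurd ((N.smul_mem_iff x0).1 ?_) k
        convert m using 1
        linear_combination (norm := module) x • three v₁
    have h3' : ∀ v ∈ N, ρ q₃ v ∈ N := fun v hv => by rw [← F.p12, rmul]; exact h1 _ (h2 _ hv)
    have k3 : v₃ ∉ N := fun e => k (F.b3 ▸ h3 _ e)
    have k2 : v₂ ∉ N := fun e => k3 (F.b2 ▸ h3 _ e)
    intro v hv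
    obtain ⟨a, c, a1, c1, e, ea⟩ := split2 (ρ := ρ) F.s1 v
    have aN : a ∈ N := ea ▸ N.neg_mem (N.add_mem hv (h1 v hv))
    have cN : c ∈ N := eq_sub_of_add_eq' e.symm ▸ N.sub_mem hv aN
    obtain ⟨a', c', a2, c2, e', ea'⟩ := split2 (ρ := ρ) F.s2 c
    have aN' : a' ∈ N := ea' ▸ N.neg_mem (N.add_mem cN (h2 c cN))
    have cN' : c' ∈ N := eq_sub_of_add_eq' e'.symm ▸ N.sub_mem cN aN'
    have a3 : ρ q₁ a' = -a' := by rw [ea', map_neg, map_add, rcomm F.com, c1, map_neg]; abel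
    have c3 : ρ q₁ c' = -c' := by rw [eq_sub_of_add_eq' e'.symm, map_sub, c1, a3]; abel
    have z1 := key F.rot h2 h3' k2 a' aN' a2
    rw [← F.p12, rmul, a2, a3] at z1
    have z2 := key F.rot.rot h3' h1 k3 c' cN' (by rw [← F.p12, rmul, c2, map_neg, c3, neg_neg])
    rw [c3] at z2
    rw [eq_zero_of_neg z1, eq_zero_of_neg z2, add_zero] at e'
    rw [e, e', add_zero]
    exact F.fix0 a1 (key F h1 h2 k a aN a1)

variable (inj : ∀ g : G, (∀ v, ρ g v = v) → g = 1)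
include inj

theorem odd_comm (ho : Odd (orderOf n)) (h1 : q₁ * n = n * q₁) (h2 : q₂ * n = n * q₂) :
    b * n = n * b := by
  have key : ∀ {q₁ q₂ q₃ : G} {v₁ v₂ v₃ : V}, Fr ρ b q₁ q₂ q₃ v₁ v₂ v₃ → q₁ * n = n * q₁ →
      q₂ * n = n * q₂ → ρ n v₁ = v₁ := fun F h1 h2 =>
    fix_of_pow (m := 2) (by rcases F.sgn h1 h2 with e | e <;> simp [sq, e])
      ho.coprime_two_left
  have h3 := F.cm3 h1 h2
  have k1 := key F h1 h2
  have k2 := key F.rot h2 h3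
  have k3 := key F.rot.rot h3 h1
  rw [← mul_inv_eq_one]
  refine inj _ fun v => ?_
  obtain ⟨u, rfl⟩ : ∃ u, v = ρ (n * b) u := ⟨_, (rinv' _ v).symm⟩
  obtain ⟨w, x, y, z, w1, w2, rfl⟩ := F.dec u
  rw [rmul, rinv, rmul, rmul]
  simp only [map_add, map_smul, k1, k2, k3, F.b1, F.b2, F.b3, F.fix0 w1 w2,
    F.fix0 (w := ρ n w) (by rw [rcomm h1, w1]) (by rw [rcomm h2, w2])]

theorem inv_one (h6 : (orderOf y).Coprime 6) (h1 : q₁ * y = y * q₁) (h2 : q₂ * y * q₂⁻¹ = y⁻¹) :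
    y = 1 := by
  obtain ⟨m, hm⟩ := exists_pow_eq_self_of_coprime (x := y) (n := 2)
    (h6.coprime_dvd_right (by norm_num)).symm
  rw [← pow_mul, mul_comm, pow_mul] at hm
  have n1 : q₁ * y ^ m = y ^ m * q₁ := (Commute.pow_right h1 m).eq
  have n2 : y = y ^ m * q₂ * (y ^ m)⁻¹ * q₂ := by
    have e : q₂⁻¹ = q₂ := inv_eq_of_mul_eq_one_right F.s2
    rw [mul_assoc, mul_assoc, ← mul_assoc q₂, ← inv_pow]
    nth_rewrite 2 [← e]
    rw [← conj_pow, ← conj_inv, h2, inv_inv, ← sq, hm]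
  generalize y ^ m = n at n1 n2
  have mi : ∀ u, ρ q₁ u = -u → ∃ s t : K3, ρ y u = s • v₂ + t • v₃ := fun u e =>
    F.minus (by rw [rcomm h1, e, map_neg])
  obtain ⟨k2, k3⟩ := small h6 (mi _ F.e12) (mi _ F.e13)
  have p1 : ∀ u, ρ q₁ u = u → ∃ x : K3, ρ q₂ u = u + x • v₁ := fun u e => by
    obtain ⟨w, x, -, w2, rfl⟩ := F.plus e
    refine ⟨x, ?_⟩
    rw [map_add, map_smul, w2, F.e21]
    linear_combination (norm := module) (-x) • three v₁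
  have p2 : ∀ u, ρ q₁ u = u → ∃ s t : K3, ρ y u = u + (s • v₁ + t • ρ n v₁) := fun u e => by
    obtain ⟨s, hs⟩ := p1 u e
    obtain ⟨t, ht⟩ := p1 (ρ n⁻¹ (ρ q₂ u)) (by
      rw [rcomm (Commute.inv_right n1).eq, rcomm F.com, e])
    exact ⟨s, t, by rw [n2, rmul, rmul, rmul, ht, map_add, rinv', map_smul, hs, add_assoc]⟩
  obtain ⟨k1, k1'⟩ := small (ρ := ρ) (a := v₁) (c := ρ n v₁) h6
    (by obtain ⟨s, t, e⟩ := p2 _ F.e11; exact ⟨1 + s, t, by rw [e]; module⟩)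
    (by obtain ⟨s, t, e⟩ := p2 (ρ n v₁) (by rw [rcomm n1, F.e11])
        exact ⟨s, 1 + t, by rw [e]; module⟩)
  refine inj _ fun v => ?_
  obtain ⟨w, x, y', z, w1, -, rfl⟩ := F.dec v
  obtain ⟨s, t, e⟩ := p2 w w1
  have k0 : ρ y w = w := fix_of_pow (cube_fix (by
    rw [e, add_sub_cancel_left, map_add, map_smul, map_smul, k1, k1']))
    (h6.coprime_dvd_right (by norm_num)).symm
  simp only [map_add, map_smul, k0, k1, k2, k3]

end Fr

theorem Tri.exists_fr (T : Tri b q) (inj : ∀ g : G, (∀ v, ρ g v = v) → g = 1) (b3 : b ^ 3 = 1)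
    (rk : Rk ρ b) : ∃ v₁ v₂ v₃, Fr ρ b q (b * q * b⁻¹) (b * (b * q * b⁻¹) * b⁻¹) v₁ v₂ v₃ := by
  have c3 : ∀ x : G, b * (b * (b * x * b⁻¹) * b⁻¹) * b⁻¹ = x := fun x => by
    rw [show b * (b * (b * x * b⁻¹) * b⁻¹) * b⁻¹ = b ^ 3 * x * (b ^ 3)⁻¹ by
      rw [pow_succ, _root_.sq]; group, b3]; simp
  have r3 : ∀ v, ρ b (ρ b (ρ b v)) = v := fun v => by
    rw [← rmul, ← rmul, ← _root_.sq, ← pow_succ, b3, rone]
  have mk : ∀ v ≠ 0, ρ q v = v → ρ (b * q * b⁻¹) v = -v →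
      ∃ v₁ v₂ v₃, Fr ρ b q (b * q * b⁻¹) (b * (b * q * b⁻¹) * b⁻¹) v₁ v₂ v₃ := fun v h0 h1 h2 =>
    ⟨v, _, _, rk, rfl, rfl, c3 q, T.sq, T.prod, h0, rfl, rfl, r3 v, h1, h2⟩
  have s2 : b * q * b⁻¹ * (b * q * b⁻¹) = 1 := by rw [conj_mul, T.sq]; simp
  have s3 : b * (b * q * b⁻¹) * b⁻¹ * (b * (b * q * b⁻¹) * b⁻¹) = 1 := by rw [conj_mul, s2]; simp
  have com : q * (b * q * b⁻¹) = b * q * b⁻¹ * q := by
    rw [← T.prod] at s3
    rw [← inv_eq_of_mul_eq_one_right s3, mul_inv_rev, inv_eq_of_mul_eq_one_right s2,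
      inv_eq_of_mul_eq_one_right T.sq]
  obtain ⟨v, hv⟩ := not_forall.1 fun e => T.ne (inj q e)
  obtain ⟨a, c, a1, c1, e, -⟩ := split2 (ρ := ρ) T.sq v
  have c0 : c ≠ 0 := fun k => hv (by rw [e, k, add_zero, a1])
  obtain ⟨a', c', a2, c2, e', ea'⟩ := split2 (ρ := ρ) s2 c
  have a3 : ρ q a' = -a' := by rw [ea', map_neg, map_add, rcomm com, c1, map_neg]; abel
  have c4 : ρ q c' = -c' := by rw [eq_sub_of_add_eq' e'.symm, map_sub, c1, a3]; abel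
  by_cases k : c' = 0
  · rw [k, add_zero] at e'
    refine mk (ρ b (ρ b a')) (rne (rne (e' ▸ c0))) ?_ ?_
    · conv_lhs => rw [← c3 q, rconj, rconj, a2]
    · conv_lhs => rw [← c3 (b * q * b⁻¹), rconj, rconj, ← T.prod, rmul, a2, a3, map_neg, map_neg]
  · refine mk (ρ b c') (rne k) ?_ (by rw [rconj, c4, map_neg])
    conv_lhs => rw [← c3 q, rconj, ← T.prod, rmul, c2, map_neg, c4, neg_neg]

/-- an abelian 2-group that `b` normalises and does not centralise contains a `Tri` -/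
theorem exists_tri {A : Subgroup G} (b3 : b ^ 3 = 1) (h2 : IsPGroup 2 A)
    (hc : ∀ x ∈ A, ∀ y ∈ A, x * y = y * x) (hb : ∀ x ∈ A, b * x * b⁻¹ ∈ A) (hy : y ∈ A)
    (hn : b * y ≠ y * b) : ∃ q ∈ A, Tri b q := by
  have c3 : ∀ x : G, b * (b * (b * x * b⁻¹) * b⁻¹) * b⁻¹ = x := fun x => by
    rw [show b * (b * (b * x * b⁻¹) * b⁻¹) * b⁻¹ = b ^ 3 * x * (b ^ 3)⁻¹ by
      rw [pow_succ, _root_.sq]; group, b3]; simp
  have xA := mul_mem (hb y hy) (inv_mem hy)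
  have x1 : b * y * b⁻¹ * y⁻¹ ≠ 1 := by rwa [Ne, mul_inv_eq_one, mul_inv_eq_iff_eq_mul]
  have p : b * (b * (b * y * b⁻¹ * y⁻¹) * b⁻¹) * b⁻¹ * (b * (b * y * b⁻¹ * y⁻¹) * b⁻¹) *
      (b * y * b⁻¹ * y⁻¹) = 1 := by
    calc _ = b * (b * (b * y * b⁻¹) * b⁻¹) * b⁻¹ * y⁻¹ := by group
      _ = 1 := by rw [c3, mul_inv_cancel]
  generalize b * y * b⁻¹ * y⁻¹ = x at xA x1 p
  obtain ⟨k, hk⟩ := h2 ⟨x, xA⟩
  have hk' : x ^ 2 ^ k = 1 := congrArg Subtype.val hk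
  obtain ⟨j, j1, j2⟩ : ∃ j : ℕ, x ^ j ≠ 1 ∧ x ^ j * x ^ j = 1 := by
    clear hk
    induction k with
    | zero => exact absurd (by simpa using hk') x1
    | succ k ih =>
      by_cases e : x ^ 2 ^ k = 1
      · exact ih e
      · exact ⟨2 ^ k, e, by rw [← pow_add, ← two_mul, ← pow_succ', hk']⟩
  refine ⟨x ^ j, pow_mem xA j, j1, j2, ?_⟩
  have x2 := hb x xA
  have x3 := hb _ x2
  have p' := congrArg (· ^ j) p
  simp only [Commute.mul_pow (hc _ (mul_mem x3 x2) _ xA), Commute.mul_pow (hc _ x3 _ x2),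
    conj_pow, one_pow] at p'
  have s3 : b * (b * x ^ j * b⁻¹) * b⁻¹ * (b * (b * x ^ j * b⁻¹) * b⁻¹) = 1 := by
    rw [conj_mul, conj_mul, j2]; simp
  rw [mul_assoc, ← s3] at p'
  rw [← mul_left_cancel p']
  exact hc _ (pow_mem xA j) _ (hb _ (pow_mem xA j))

end Cfsg.Lib.Cub
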