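import Cfsg.Agent.Cub.A
import Cfsg.Agent.Solv.PConstrained
import Cfsg.Agent.Solv.MinNormal

/-!
# Four-groups normalised by an element of order three with a single cubic block: the abelian case
-/

set_option autoImplicit false
set_option linter.unusedSectionVars false

namespace Cfsg.Lib.Cub

open Subgroup Cfsg.Lib.Solv

variable {G V : Type*} [Group G] [AddCommGroup V] [Module K3 V] {ρ : Representation K3 G V}
  {b c g h n q q₁ q₂ q₃ t x y : G} {u v w v₁ v₂ v₃ : V} {H K N R : Subgroup G}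

theorem card_two (hl : H ≤ K) (ht : t ∈ K) (h0 : t ∉ H) (h : ∀ x ∈ K, x ∈ H ∨ x * t ∈ H) :
    Nat.card K = 2 * Nat.card H := by
  rw [← relIndex_mul_card_of_le hl, relIndex_eq_two_iff.2 ⟨t, ht, fun x hx => ?_⟩]
  by_cases k : x ∈ H
  · exact Or.inr ⟨k, fun e => h0 ((mul_mem_cancel_left k).1 e)⟩
  · exact Or.inl ⟨(h x hx).resolve_left k, k⟩

theorem det_diag {ι : Type} [Fintype ι] [DecidableEq ι] (e : ι → V) (li : LinearIndependent K3 e)
    (sp : ⊤ ≤ Submodule.span K3 (Set.range e)) (f : V →ₗ[K3] V) (c : ι → K3)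
    (h : ∀ i, f (e i) = c i • e i) : LinearMap.det f = ∏ i, c i := by
  let B := Module.Basis.mk li sp
  have hB : ∀ i, e i = B i := fun i => (Module.Basis.mk_apply li sp i).symm
  rw [← LinearMap.det_toMatrix B, ← Matrix.det_diagonal]
  congr 1
  ext i j
  rw [LinearMap.toMatrix_apply, ← hB, h, hB, map_smul, B.repr_self, Matrix.diagonal_apply]
  by_cases k : i = j
  · simp [k]
  · simp [k]

theorem eq_one_of_pow {m k : ℕ} (h1 : x ^ m = 1) (h2 : x ^ k = 1) (h : m.Coprime k) : x = 1 :=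
  orderOf_eq_one_iff.1 (Nat.eq_one_of_dvd_coprimes h (orderOf_dvd_of_pow_eq_one h1)
    (orderOf_dvd_of_pow_eq_one h2))

theorem mem_of_pow {p i : ℕ} (hp : p.Prime) (h1 : x ^ p ∈ H) (h2 : x ^ i ∈ H) (i0 : 0 < i)
    (hi : i < p) : x ∈ H := by
  obtain ⟨a, c, e⟩ : IsCoprime (p : ℤ) (i : ℤ) :=
    Nat.isCoprime_iff_coprime.2 (Nat.coprime_of_lt_prime i0.ne' hi hp)
  have := mul_mem (zpow_mem h1 a) (zpow_mem h2 c)
  rwa [← zpow_natCast, ← zpow_natCast, ← zpow_mul, ← zpow_mul, ← zpow_add, mul_comm (p : ℤ),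
    mul_comm (i : ℤ), e, zpow_one] at this

/-- an abelian group of exponent `p ≥ 5` normalised by a 3-cycle fixes the moved points -/
theorem perm3 {Ω : Type*} [MulAction G Ω] {p : ℕ} (hp : p.Prime) (h5 : 5 ≤ p) {l₁ l₂ l₃ : Ω}
    (hc : ∀ k ∈ K, ∀ k' ∈ K, ∀ x : Ω, k • k' • x = k' • k • x) (he : ∀ k ∈ K, ∀ x : Ω, k ^ p • x = x)
    (hb : ∀ k ∈ K, b * k * b⁻¹ ∈ K) (h : ∀ x : Ω, x = l₁ ∨ x = l₂ ∨ x = l₃ ∨ b • x = x)
    (h1 : b • l₁ ≠ l₁) : ∀ k ∈ K, k • l₁ = l₁ := by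
  have pig : ∀ k ∈ K, ∀ x : Ω, k • x ≠ x → ∃ i, 0 < i ∧ i < 5 ∧ b • k ^ i • x = k ^ i • x := by
    intro k hk x hx
    by_contra hn
    push Not at hn
    have inj : ∀ i j, i < j → j < 5 → k ^ i • x ≠ k ^ j • x := fun i j hij hj e => by
      obtain ⟨m, rfl⟩ := Nat.exists_eq_add_of_lt hij
      rw [add_assoc, pow_add, mul_smul, smul_left_cancel_iff] at e
      exact hx (mem_of_pow (H := MulAction.stabilizer G x) hp (he k hk x) e.symm (by omega)
        (by omega))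
    have a : ∀ i, 0 < i → i < 5 → k ^ i • x = l₁ ∨ k ^ i • x = l₂ ∨ k ^ i • x = l₃ := fun i h0 hi => by
      have := h (k ^ i • x)
      have := hn i h0 hi
      tauto
    have n12 := inj 1 2 (by omega) (by omega)
    have n13 := inj 1 3 (by omega) (by omega)
    have n14 := inj 1 4 (by omega) (by omega)
    have n23 := inj 2 3 (by omega) (by omega)
    have n24 := inj 2 4 (by omega) (by omega)
    have n34 := inj 3 4 (by omega) (by omega)
    have a1 := a 1 (by omega) (by omega)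
    have a2 := a 2 (by omega) (by omega)
    have a3 := a 3 (by omega) (by omega)
    have a4 := a 4 (by omega) (by omega)
    generalize k ^ 1 • x = x1, k ^ 2 • x = x2, k ^ 3 • x = x3, k ^ 4 • x = x4 at *
    grind
  intro k hk
  by_contra hn
  obtain ⟨i, -, -, hi⟩ := pig k hk l₁ hn
  have back : l₁ = (k ^ i)⁻¹ • k ^ i • l₁ := (inv_smul_smul _ _).symm
  generalize k ^ i • l₁ = μ at hi back
  let S : Subgroup G :=
    { carrier := {k | k ∈ K ∧ b • k • μ = k • μ}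
      one_mem' := ⟨one_mem _, by rwa [one_smul]⟩
      mul_mem' := fun {k k'} h1 h2 => ⟨mul_mem h1.1 h2.1, by
        have e : ∀ x : Ω, b • k • x = (b * k * b⁻¹) • b • x := fun x => by
          rw [← mul_smul, ← mul_smul, inv_mul_cancel_right]
        have e1 := h1.2
        rw [e, hi] at e1
        rw [mul_smul, e, h2.2, hc _ (hb k h1.1) _ h2.1, e1, hc _ h2.1 _ h1.1]⟩
      inv_mem' := fun {k} h1 => ⟨inv_mem h1.1, by
        have e : ∀ k : G, ∀ x : Ω, b • k • x = (b * k * b⁻¹) • b • x := fun k x => by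
          rw [← mul_smul, ← mul_smul, inv_mul_cancel_right]
        have e1 := h1.2
        rw [e, hi] at e1
        rw [e, hi, ← conj_inv, inv_smul_eq_iff, hc _ (hb k h1.1) _ (inv_mem h1.1), e1,
          inv_smul_smul]⟩ }
  refine h1 ?_
  have hk' := inv_mem (pow_mem hk i)
  generalize (k ^ i)⁻¹ = k' at back hk'
  by_cases e : k' • μ = μ
  · rw [back, e, hi]
  · obtain ⟨j, j0, j5, hj⟩ := pig k' hk' μ e
    rw [back]
    exact (mem_of_pow (H := S) hp ⟨pow_mem hk' p, by rw [he _ hk', hi]⟩ ⟨pow_mem hk' j, hj⟩ j0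
      (by omega)).2

/-- The stabiliser of the line through `v`. -/
def Ln (ρ : Representation K3 G V) (v : V) : Subgroup G where
  carrier := {g | ρ g v = v ∨ ρ g v = -v}
  one_mem' := Or.inl (rone v)
  mul_mem' {g h} hg hh := by
    change _ ∨ _
    rcases hg with e | e <;> rcases hh with e' | e' <;> simp [e, e']
  inv_mem' {g} hg := by
    rcases hg with e | e
    · left; conv_lhs => rw [← e, rinv]
    · right; rw [← neg_eq_iff_eq_neg, ← map_neg, ← e, rinv]

/-- The four-group of a frame. -/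
def Fr.Q (F : Fr ρ b q₁ q₂ q₃ v₁ v₂ v₃) : Subgroup G where
  carrier := {g | g = 1 ∨ g = q₁ ∨ g = q₂ ∨ g = q₃}
  one_mem' := Or.inl rfl
  mul_mem' {g h} hg hh := by
    change _ ∨ _
    rcases hg with e | e | e | e <;> rcases hh with e' | e' | e' | e' <;>
      simp only [e, e', mul_one, one_mul, F.s1, F.s2, F.s3, F.p12, F.p21, F.rot.p12, F.rot.p21,
        F.rot.rot.p12, F.rot.rot.p21, true_or, or_true]
  inv_mem' {g} hg := by
    rcases hg with e | e | e | e <;> rw [e]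
    exacts [Or.inl _root_.inv_one, Or.inr (Or.inl (inv_eq_of_mul_eq_one_right F.s1)),
      Or.inr (Or.inr (Or.inl (inv_eq_of_mul_eq_one_right F.s2))),
      Or.inr (Or.inr (Or.inr (inv_eq_of_mul_eq_one_right F.s3)))]

theorem Fr.Q_sq (F : Fr ρ b q₁ q₂ q₃ v₁ v₂ v₃) (hg : g ∈ F.Q) : g * g = 1 := by
  rcases hg with e | e | e | e <;> rw [e]
  exacts [mul_one _, F.s1, F.s2, F.s3]

theorem Fr.card_Q (F : Fr ρ b q₁ q₂ q₃ v₁ v₂ v₃) : Nat.card F.Q = 4 := by
  change Nat.card ({1, q₁, q₂, q₃} : Set G) = 4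
  rw [Nat.card_coe_set_eq, Set.ncard_insert_of_notMem, Set.ncard_insert_of_notMem,
    Set.ncard_pair F.rot.q12]
  · simp [F.q12, F.rot.rot.q12.symm]
  · simp [F.q1ne.symm, F.rot.q1ne.symm, F.rot.rot.q1ne.symm]

theorem ea_of_sq (h : ∀ x ∈ H, x * x = 1) : IsElementaryAbelian 2 H :=
  ⟨⟨⟨fun x y => Subtype.ext (by
    have i : ∀ x ∈ H, x⁻¹ = x := fun x hx => inv_eq_of_mul_eq_one_right (h x hx)
    change (x : G) * y = y * x
    rw [← i _ (mul_mem x.2 y.2), mul_inv_rev, i _ x.2, i _ y.2])⟩⟩, fun a ha => by rw [sq, h a ha]⟩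

/-- The irreducible configuration. -/
structure Ctx (ρ : Representation K3 G V) (R : Subgroup G) (b : G) : Prop where
  inj : ∀ g : G, (∀ v, ρ g v = v) → g = 1
  b3 : b ^ 3 = 1
  rk : Rk ρ b
  nR : R.Normal
  cop : (Nat.card R).Coprime 3
  dec : ∀ g, ∃ r ∈ R, ∃ i : ℕ, g = r * b ^ i
  gen : ∀ N : Subgroup G, N.Normal → b ∈ N → ∀ g, g ∈ N
  irr : ∀ N : Submodule K3 V, (∀ g, ∀ v ∈ N, ρ g v ∈ N) → N = ⊥ ∨ N = ⊤
  tri : ∃ q, Tri b q

namespace Ctx

variable [Finite G] [Group.IsSolvable G] (C : Ctx ρ R b)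
include C

theorem ext (e : ∀ v, ρ g v = ρ h v) : g = h :=
  mul_inv_eq_one.1 (C.inj _ fun v => by rw [rmul, e, rinv'])

theorem fr : ∃ q₁ q₂ q₃ v₁ v₂ v₃, Fr ρ b q₁ q₂ q₃ v₁ v₂ v₃ := by
  obtain ⟨q, T⟩ := C.tri
  exact ⟨_, _, _, T.exists_fr C.inj C.b3 C.rk⟩

theorem all {N : Submodule K3 V} (h : ∀ g, ∀ v ∈ N, ρ g v ∈ N) (h0 : u ≠ 0) (hu : u ∈ N) (v : V) :
    v ∈ N := by
  rcases C.irr N h with e | e <;> rw [e] at hu ⊢
  exacts [absurd hu h0, trivial]

theorem cen (hc : ∀ g, c * g = g * c) : c = 1 ∨ ∀ v, ρ c v = -v := by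
  obtain ⟨q₁, q₂, q₃, v₁, v₂, v₃, F⟩ := C.fr
  refine (F.sgn (hc _).symm (hc _).symm).imp (fun e => C.inj c ?_) fun e => ?_
  · exact C.all (N := LinearMap.eqLocus (ρ c) LinearMap.id) (fun g v hv =>
      (rcomm (hc g) v).trans (congrArg (ρ g) hv)) F.ne e
  · exact C.all (N := LinearMap.eqLocus (ρ c) (-LinearMap.id)) (fun g v hv =>
      (rcomm (hc g) v).trans ((congrArg (ρ g) hv).trans (map_neg _ _))) F.ne e

theorem cen_sq (hc : ∀ g, c * g = g * c) : c * c = 1 := by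
  rcases C.cen hc with e | e
  · rw [e, mul_one]
  · exact C.inj _ fun v => by rw [rmul, e, e, neg_neg]

theorem norm_cen [N.Normal] (h : ∀ n ∈ N, n * b = b * n) (hn : n ∈ N) (g : G) : n * g = g * n :=
  mem_centralizer_iff.1 (C.gen (centralizer (N : Set G)) inferInstance
    (mem_centralizer_iff.2 h) g) n hn

theorem cube (g : G) : g ^ 3 ∈ R := by
  have := C.nR
  obtain ⟨r, hr, i, rfl⟩ := C.dec g
  rw [← QuotientGroup.eq_one_iff, QuotientGroup.mk_pow, QuotientGroup.mk_mul,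
    (QuotientGroup.eq_one_iff r).2 hr, one_mul, ← QuotientGroup.mk_pow, ← pow_mul, mul_comm,
    pow_mul, C.b3, one_pow, QuotientGroup.mk_one]

theorem mem_R {k : ℕ} (h : g ^ 2 ^ k = 1) : g ∈ R := by
  obtain ⟨m, hm⟩ := exists_pow_eq_self_of_coprime (x := g) (n := 3)
    (Nat.Coprime.coprime_dvd_right (orderOf_dvd_of_pow_eq_one h)
      (Nat.Coprime.pow_right k (by norm_num)))
  exact hm ▸ pow_mem (C.cube g) m

theorem one_of_R (h : g ∈ R) (h3 : g ^ 3 = 1) : g = 1 :=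
  eq_one_of_pow (congrArg Subtype.val (pow_card_eq_one' (x := (⟨g, h⟩ : R)))) h3 C.cop

theorem core : pPrimeCore 2 G = ⊥ := by
  have : Fact (Nat.Prime 2) := ⟨Nat.prime_two⟩
  have := C.nR
  by_contra hn
  obtain ⟨p, N, hp, hN, le, com, he, -⟩ := exists_isMinNormal_elementary_le _ hn
  have := hN.normal
  have od : ∀ n ∈ N, Odd (orderOf n) := fun n hn => Nat.coprime_two_right.1
    ((coprime_card_pPrimeCore (p := 2) (G := G)).coprime_dvd_left
      (Subgroup.orderOf_dvd_natCard _ (le hn)))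
  have one : ∀ n ∈ N, n * n = 1 → n = 1 := fun n hn e =>
    eq_one_of_pow (pow_orderOf_eq_one n) ((sq n).trans e) (od n hn).coprime_two_right
  obtain ⟨q₁, q₂, q₃, v₁, v₂, v₃, F⟩ := C.fr
  have cm : ∀ x ∈ N, ∀ y ∈ N, x * y = y * x := fun x hx y hy =>
    congrArg Subtype.val (com.1.1 ⟨x, hx⟩ ⟨y, hy⟩)
  have key : ∀ {q₁ q₂ q₃ : G} {v₁ v₂ v₃ : V}, Fr ρ b q₁ q₂ q₃ v₁ v₂ v₃ → ∀ n ∈ N,
      q₃ * n = n * q₃ := by
    intro q₁ q₂ q₃ v₁ v₂ v₃ F n hn
    by_cases p3 : p = 3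
    · have qR : q₃ ∈ R := C.mem_R (k := 1) ((sq q₃).trans F.s3)
      rw [← commutatorElement_eq_one_iff_mul_comm]
      refine C.one_of_R ?_ (p3 ▸ he _ (mul_mem (this.conj_mem n hn q₃) (inv_mem hn)))
      rw [commutatorElement_def, mul_assoc, mul_assoc, ← mul_assoc n]
      exact mul_mem qR (C.nR.conj_mem _ (inv_mem qR) n)
    have k : ∀ {q₁ q₂ q₃ : G} {v₁ v₂ v₃ : V}, Fr ρ b q₁ q₂ q₃ v₁ v₂ v₃ →
        n * (q₁ * n * q₁⁻¹) = q₂ * n * q₂⁻¹ * (q₃ * n * q₃⁻¹) := by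
      intro q₁ q₂ q₃ v₁ v₂ v₃ F
      have cj : ∀ a : G, a * (n * (q₁ * n * q₁⁻¹) * (q₂ * n * q₂⁻¹ * (q₃ * n * q₃⁻¹))⁻¹) * a⁻¹ =
          a * n * a⁻¹ * (a * q₁ * n * (a * q₁)⁻¹) *
            (a * q₂ * n * (a * q₂)⁻¹ * (a * q₃ * n * (a * q₃)⁻¹))⁻¹ := fun a => by group
      have m := fun a => this.conj_mem n hn a
      have yN := mul_mem (mul_mem hn (m q₁)) (inv_mem (mul_mem (m q₂) (m q₃)))
      refine mul_inv_eq_one.1 (F.inv_one C.inj (Nat.Coprime.mul_right (od _ yN).coprime_two_right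
        (((Nat.coprime_primes hp Nat.prime_three).2 p3).coprime_dvd_left
          (orderOf_dvd_of_pow_eq_one (he _ yN)))) (mul_inv_eq_iff_eq_mul.1 ?_) ?_)
      · rw [cj, F.s1, F.p12, F.rot.rot.p21,
          one_mul, inv_one, mul_one, cm _ (m q₁) _ hn, cm _ (m q₃) _ (m q₂)]
      · rw [cj, F.s2, F.p21, F.rot.p12,
          one_mul, inv_one, mul_one, mul_inv_rev (n * _), inv_inv]
    have k1 := k F
    have k2 := k F.rot
    have m1 := this.conj_mem n hn q₁
    have m2 := this.conj_mem n hn q₂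
    have m3 := this.conj_mem n hn q₃
    rw [← mul_inv_eq_iff_eq_mul, ← inv_mul_eq_one]
    generalize q₁ * n * q₁⁻¹ = n₁, q₂ * n * q₂⁻¹ = n₂, q₃ * n * q₃⁻¹ = n₃ at *
    refine one _ (mul_mem (inv_mem m3) hn) ?_
    have e : n * n * (n₁ * n₂) = n₃ * n₃ * (n₁ * n₂) :=
      calc _ = n * (n * n₁) * n₂ := by group
        _ = n * n₁ * (n * n₂) := by rw [mul_assoc n n₁, ← mul_assoc n₁, ← cm n hn n₁ m1]; group
        _ = n₂ * (n₃ * n₃ * n₁) := by rw [k1, k2]; group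
        _ = _ := by rw [cm n₂ m2 _ (mul_mem (mul_mem m3 m3) m1)]; group
    rw [mul_assoc, ← mul_assoc n, cm n hn _ (inv_mem m3), mul_assoc, mul_right_cancel e]
    group
  refine hN.ne_bot ((eq_bot_iff_forall N).2 fun n hn => one n hn (C.cen_sq (C.norm_cen
    (fun n hn => (F.odd_comm C.inj (od n hn) (key F.rot n hn) (key F.rot.rot n hn)).symm) hn)))

theorem cT : centralizer (pCore 2 G : Set G) ≤ pCore 2 G :=
  have : Fact (Nat.Prime 2) := ⟨Nat.prime_two⟩
  (isPConstrained_iff_of_pPrimeCore_eq_bot C.core).1 (isPConstrained_of_isSolvable 2 G)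

theorem TR : pCore 2 G ≤ R := fun t ht => by
  have : Fact (Nat.Prime 2) := ⟨Nat.prime_two⟩
  obtain ⟨k, hk⟩ := pCore_isPGroup (p := 2) (G := G) ⟨t, ht⟩
  exact C.mem_R (congrArg Subtype.val hk)

theorem det (g : G) : LinearMap.det (ρ g) = 1 := by
  refine C.gen (LinearMap.det.comp ρ).ker inferInstance ?_ g
  have e : ∀ x : K3, x ^ 3 = 1 → x = 1 := by decide
  exact e _ (by rw [← map_pow, C.b3, map_one])

theorem caseA (T : Tri b q) (h1 : q ∈ pCore 2 G) (h2 : q ∈ centralizer (pCore 2 G : Set G)) :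
    IsElementaryAbelian 2 R ∧ Nat.card R = 4 := by
  have : Fact (Nat.Prime 2) := ⟨Nat.prime_two⟩
  have := C.nR
  obtain ⟨v₁, v₂, v₃, F⟩ := T.exists_fr C.inj C.b3 C.rk
  have nZ : (pCore 2 G ⊓ centralizer (pCore 2 G : Set G)).Normal := inferInstance
  have z1 : q ∈ pCore 2 G ⊓ centralizer (pCore 2 G : Set G) := ⟨h1, h2⟩
  have z2 := nZ.conj_mem _ z1 b
  have z3 := nZ.conj_mem _ z2 b
  generalize b * (b * q * b⁻¹) * b⁻¹ = q₃ at F z3
  generalize b * q * b⁻¹ = q₂ at F z2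
  have cm : ∀ x ∈ pCore 2 G ⊓ centralizer (pCore 2 G : Set G), ∀ t ∈ pCore 2 G, x * t = t * x :=
    fun x hx t ht => (mem_centralizer_iff.1 hx.2 t ht).symm
  have T1 : pCore 2 G ≤ Ln ρ v₁ := fun t ht => F.sgn (cm _ z1 t ht) (cm _ z2 t ht)
  have T2 : pCore 2 G ≤ Ln ρ v₂ := fun t ht => F.rot.sgn (cm _ z2 t ht) (cm _ z3 t ht)
  have T3 : pCore 2 G ≤ Ln ρ v₃ := fun t ht => F.rot.rot.sgn (cm _ z3 t ht) (cm _ z1 t ht)
  have RT : R ≤ pCore 2 G := by
    let π := QuotientGroup.mk' (pCore 2 G)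
    have sj := QuotientGroup.mk'_surjective (pCore 2 G)
    have := C.nR.map π sj
    by_contra hn
    obtain ⟨p, N, hp, hN, le, com, he, hP⟩ := exists_isMinNormal_elementary_le (R.map π)
      fun e => hn (by rwa [Subgroup.map_eq_bot_iff, QuotientGroup.ker_mk'] at e)
    have nN := hN.normal
    have nK := nN.comap π
    refine hN.ne_bot ((eq_bot_iff_forall N).2 fun x hx => ?_)
    obtain ⟨k, kR, rfl⟩ := le hx
    by_cases p2 : p = 2
    · subst p2
      exact (QuotientGroup.eq_one_iff k).2 (le_pCore nK (hP.comap_of_ker_isPGroup π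
        (by rw [QuotientGroup.ker_mk']; exact pCore_isPGroup 2 G)) hx)
    by_cases p3 : p = 3
    · refine eq_one_of_pow ?_ (p3 ▸ he _ hx) C.cop
      rw [← map_pow, show k ^ Nat.card R = 1 from
        congrArg Subtype.val (pow_card_eq_one' (x := (⟨k, kR⟩ : R))), map_one]
    have fx : ∀ t ∈ pCore 2 G, ∀ x : G ⧸ Ln ρ v₁, t • x = x := fun t ht x => by
      obtain ⟨g, rfl⟩ := QuotientGroup.mk_surjective x
      rw [MulAction.Quotient.smul_mk, QuotientGroup.eq, smul_eq_mul, mul_inv_rev]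
      exact T1 (Normal.conj_mem' inferInstance _ (inv_mem ht) g)
    have fx' : ∀ k k' : G, π k = π k' → ∀ x : G ⧸ Ln ρ v₁, k • x = k' • x := fun k k' e x => by
      rw [← mul_inv_cancel_left k k', mul_smul k, fx _ (QuotientGroup.eq.1 e)]
    have key := perm3 (K := N.comap π) (b := b) (Ω := G ⧸ Ln ρ v₁) hp (hp.five_le_of_ne_two_of_ne_three p2 p3)
      (l₁ := (1 : G)) (l₂ := (b : G)) (l₃ := (b * b : G))
      (fun k hk k' hk' x => by
        rw [← mul_smul, ← mul_smul]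
        exact fx' _ _ (by
          rw [map_mul, map_mul]; exact congrArg Subtype.val (com.1.1 ⟨_, hk⟩ ⟨_, hk'⟩)) x)
      (fun k hk x => (fx' _ 1 (by rw [map_pow, he _ hk, map_one]) x).trans (one_smul _ _))
      (fun k hk => nK.conj_mem k hk b) (fun x => by
        obtain ⟨g, rfl⟩ := QuotientGroup.mk_surjective x
        have s : ∀ x ∈ pCore 2 G ⊓ centralizer (pCore 2 G : Set G),
            ρ x (ρ g v₁) = ρ g v₁ ∨ ρ x (ρ g v₁) = -ρ g v₁ := fun x hx => by
          have e : x = g * (g⁻¹ * x * g) * g⁻¹ := by group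
          rw [e, rconj, ← map_neg]
          exact (T1 (nZ.conj_mem' x hx g).1).imp (congrArg _) (congrArg _)
        have u0 : ρ g v₁ ≠ 0 := rne F.ne
        have fin : ∀ a : G, ρ g v₁ = ρ a v₁ ∨ ρ g v₁ = -ρ a v₁ → (g : G ⧸ Ln ρ v₁) = a :=
          fun a e => (QuotientGroup.eq.2 (e.imp (fun e => by rw [rmul, e, rinv])
            fun e => by rw [rmul, e, map_neg, rinv])).symm
        rcases s _ z1 with e1 | e1 <;> rcases s _ z2 with e2 | e2
        · exact Or.inr (Or.inr (Or.inr (fin (b * g) (Or.inl (by rw [rmul, F.fix0 e1 e2]))).symm))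
        · exact Or.inl (fin 1 (by rw [rone]; exact F.line' u0 e1 e2))
        · exact Or.inr (Or.inl (fin b (by
            rw [F.b1]; exact F.rot.line' u0 e2 (by rw [← F.p12, rmul, e2, e1]))))
        · exact Or.inr (Or.inr (Or.inl (fin (b * b) (by
            rw [rmul, F.b1, F.b2]
            exact F.rot.rot.line' u0 (by rw [← F.p12, rmul, e2, map_neg, e1, neg_neg]) e1)))))
      (fun e => by
        rw [MulAction.Quotient.smul_mk, eq_comm, QuotientGroup.eq, smul_eq_mul, inv_one, one_mul,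
          mul_one] at e
        rcases e with e | e <;> rw [F.b1] at e
        · exact one_ne_zero (F.ind (w := 0) (x := -1) (y := 1) (z := 0) (map_zero _) (map_zero _)
            (by rw [e]; module)).2.2.1
        · exact one_ne_zero (F.ind (w := 0) (x := 1) (y := 1) (z := 0) (map_zero _) (map_zero _)
            (by rw [e]; module)).2.2.1)
    have kL : ∀ k ∈ N.comap π, k ∈ Ln ρ v₁ := fun k hk => by
      have := key k hk
      rwa [MulAction.Quotient.smul_mk, eq_comm, QuotientGroup.eq, smul_eq_mul, inv_one, one_mul,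
        mul_one] at this
    have k2 : ∀ k ∈ N.comap π, ρ (k * k) v₁ = v₁ := fun k hk => by
      rcases kL k hk with e | e <;> simp [e]
    let M : Submodule K3 V := ⨅ k ∈ N.comap π, LinearMap.eqLocus (ρ (k * k)) LinearMap.id
    have hM : ∀ v, v ∈ M ↔ ∀ k ∈ N.comap π, ρ (k * k) v = v := fun v => by
      simp only [M, Submodule.mem_iInf]; rfl
    have k3 : k * k = 1 := C.inj _ fun v => (hM v).1 (C.all (fun g v hv => (hM _).2 fun k hk => by
      have e : k * k = g * (g⁻¹ * k * g * (g⁻¹ * k * g)) * g⁻¹ := by group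
      rw [e, rconj, (hM v).1 hv _ (nK.conj_mem' k hk g)]) F.ne ((hM _).2 k2) v) k hx
    exact eq_one_of_pow (he _ hx) (by rw [← map_pow, sq, k3, map_one])
      ((Nat.coprime_primes hp Nat.prime_two).2 p2)
  have sp : ∀ v, v ∈ Submodule.span K3 (Set.range ![v₁, v₂, v₃]) := by
    have m1 : v₁ ∈ Submodule.span K3 (Set.range ![v₁, v₂, v₃]) := Submodule.subset_span ⟨0, rfl⟩
    have m2 : v₂ ∈ Submodule.span K3 (Set.range ![v₁, v₂, v₃]) := Submodule.subset_span ⟨1, rfl⟩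
    have m3 : v₃ ∈ Submodule.span K3 (Set.range ![v₁, v₂, v₃]) := Submodule.subset_span ⟨2, rfl⟩
    have e : ∀ g : G, ρ g v₁ ∈ Submodule.span K3 (Set.range ![v₁, v₂, v₃]) →
        ρ g v₂ ∈ Submodule.span K3 (Set.range ![v₁, v₂, v₃]) →
        ρ g v₃ ∈ Submodule.span K3 (Set.range ![v₁, v₂, v₃]) →
        Submodule.span K3 (Set.range ![v₁, v₂, v₃]) ≤
          (Submodule.span K3 (Set.range ![v₁, v₂, v₃])).comap (ρ g) := fun g a1 a2 a3 =>
      Submodule.span_le.2 (by rintro _ ⟨i, rfl⟩; fin_cases i; exacts [a1, a2, a3])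
    generalize Submodule.span K3 (Set.range ![v₁, v₂, v₃]) = M at *
    have l : ∀ g v, g ∈ Ln ρ v → v ∈ M → ρ g v ∈ M := fun g v e hv => by
      rcases e with e | e <;> rw [e]
      exacts [hv, M.neg_mem hv]
    refine C.all (fun g v hv => ?_) F.ne m1
    obtain ⟨r, hr, i, rfl⟩ := C.dec g
    rw [rmul]
    refine e r (l _ _ (T1 (RT hr)) m1) (l _ _ (T2 (RT hr)) m2) (l _ _ (T3 (RT hr)) m3) ?_
    induction i with
    | zero => rwa [pow_zero, rone]
    | succ i ih => rw [pow_succ', rmul]; exact e b (F.b1 ▸ m2) (F.b2 ▸ m3) (F.b3 ▸ m1) ih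
  have li : LinearIndependent K3 ![v₁, v₂, v₃] := Fintype.linearIndependent_iff.2 fun c e i => by
    obtain ⟨-, k1, k2, k3⟩ := F.ind (w := 0) (x := c 0) (y := c 1) (z := c 2) (map_zero _)
      (map_zero _) (by rw [zero_add]; simpa [Fin.sum_univ_three] using e)
    fin_cases i
    exacts [k1, k2, k3]
  have ex : ∀ g h : G, ρ g v₁ = ρ h v₁ → ρ g v₂ = ρ h v₂ → ρ g v₃ = ρ h v₃ → g = h :=
    fun g h a1 a2 a3 => C.ext fun v => (Submodule.span_le (p := LinearMap.eqLocus (ρ g) (ρ h))).2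
      (by rintro _ ⟨i, rfl⟩; fin_cases i; exacts [a1, a2, a3]) (sp v)
  have dt : ∀ g, ∀ x y z : K3, ρ g v₁ = x • v₁ → ρ g v₂ = y • v₂ → ρ g v₃ = z • v₃ → x * y * z = 1 :=
    fun g x y z a1 a2 a3 => by
      have := det_diag _ li (fun v _ => sp v) (ρ g) ![x, y, z]
        (fun i => by fin_cases i; exacts [a1, a2, a3])
      rw [C.det, Fin.prod_univ_three] at this
      exact this.symm
  have e : R = F.Q := le_antisymm (fun r hr => by
    have o : ∀ v : V, v = (1 : K3) • v := fun v => (one_smul _ v).symm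
    have m : ∀ v : V, -v = (-1 : K3) • v := fun v => (neg_one_smul _ v).symm
    rcases T1 (RT hr) with a1 | a1 <;> rcases T2 (RT hr) with a2 | a2 <;>
      rcases T3 (RT hr) with a3 | a3
    · exact Or.inl (ex _ _ (by rw [a1, rone]) (by rw [a2, rone]) (by rw [a3, rone]))
    · exact absurd (dt r _ _ _ (a1.trans (o _)) (a2.trans (o _)) (a3.trans (m _))) (by decide)
    · exact absurd (dt r _ _ _ (a1.trans (o _)) (a2.trans (m _)) (a3.trans (o _))) (by decide)
    · exact Or.inr (Or.inl (ex _ _ (by rw [a1, F.e11]) (by rw [a2, F.e12]) (by rw [a3, F.e13])))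
    · exact absurd (dt r _ _ _ (a1.trans (m _)) (a2.trans (o _)) (a3.trans (o _))) (by decide)
    · exact Or.inr (Or.inr (Or.inl
        (ex _ _ (by rw [a1, F.e21]) (by rw [a2, F.e22]) (by rw [a3, F.e23]))))
    · exact Or.inr (Or.inr (Or.inr
        (ex _ _ (by rw [a1, F.e31]) (by rw [a2, F.e32]) (by rw [a3, F.e33]))))
    · exact absurd (dt r _ _ _ (a1.trans (m _)) (a2.trans (m _)) (a3.trans (m _))) (by decide))
    fun x hx => C.mem_R (k := 1) ((sq x).trans (F.Q_sq hx))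
  rw [e]
  exact ⟨ea_of_sq fun x => F.Q_sq, F.card_Q⟩

end Ctx

end Cfsg.Lib.Cub
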