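import Cfsg.Agent.Cub.B
import Cfsg.Agent.Solv.PGroupNormal
import Cfsg.Agent.Solv.ExtraSub

/-!
# Four-groups normalised by an element of order three with a single cubic block: the second centre
-/

set_option autoImplicit false
set_option linter.unusedSectionVars false

namespace Cfsg.Lib.Cub

open Subgroup Cfsg.Lib.Solv
open scoped commutatorElement

variable {G V : Type*} [Group G] [AddCommGroup V] [Module K3 V] {ρ : Representation K3 G V}
  {b c g h n q q₁ q₂ q₃ s s₁ s₂ t x x₁ x₂ y z : G} {u v w v₁ v₂ v₃ : V} {H K N R T W Z : Subgroup G}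

theorem card_fix {α : Type*} [Finite α] (σ : α → α) (p : ℕ) [Fact p.Prime] (S : Set α)
    (hS : ∀ x ∈ S, σ x ∈ S) (hp : ∀ x ∈ S, σ^[p] x = x) :
    Nat.card S ≡ Nat.card {x | x ∈ S ∧ σ x = x} [MOD p] := by
  classical
  let f : Function.End S := fun x => ⟨σ x, hS x x.2⟩
  have h1 : ∀ n (x : S), ((f ^ n) x : α) = σ^[n] x := fun n => by
    induction n with
    | zero => intro x; rfl
    | succ n ih => intro x; rw [pow_succ]; exact ih (f x)
  have := Fintype.ofFinite S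
  have h2 := Equiv.Perm.card_fixedPoints_modEq (f := f) (p := p) (n := 1)
    (funext fun x => Subtype.ext (by rw [pow_one, h1, hp x x.2]; rfl))
  rw [← Nat.card_eq_fintype_card, ← Nat.card_eq_fintype_card] at h2
  refine h2.trans (Nat.ModEq.symm ?_)
  rw [Nat.card_congr (β := f.fixedPoints)
    ⟨fun x => ⟨⟨x.1, x.2.1⟩, Subtype.ext x.2.2⟩, fun x => ⟨x.1.1, x.1.2, congrArg Subtype.val x.2⟩,
      fun _ => rfl, fun _ => rfl⟩]

theorem card_fix_conj [Finite G] {p : ℕ} (hp : p.Prime) (hy : y ^ p = 1) (S : Set G)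
    (hS : ∀ x ∈ S, y * x * y⁻¹ ∈ S) :
    Nat.card S ≡ Nat.card {x | x ∈ S ∧ y * x * y⁻¹ = x} [MOD p] := by
  have : Fact p.Prime := ⟨hp⟩
  have e : ∀ (n : ℕ) (x : G), (fun v => y * v * y⁻¹)^[n] x = y ^ n * x * (y ^ n)⁻¹ := fun n x => by
    induction n with
    | zero => simp
    | succ n ih => rw [Function.iterate_succ_apply', ih, pow_succ']; group
  exact card_fix (fun v => y * v * y⁻¹) p S hS fun x _ => by rw [e, hy]; simp

/-- The elements of `T` that are central modulo `Z`. -/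
def Y2 (T Z : Subgroup G) [Z.Normal] : Subgroup G :=
  T ⊓ (centralizer (T.map (QuotientGroup.mk' Z) : Set (G ⧸ Z))).comap (QuotientGroup.mk' Z)

theorem comm_mk [Z.Normal] : QuotientGroup.mk' Z x * QuotientGroup.mk' Z y =
    QuotientGroup.mk' Z y * QuotientGroup.mk' Z x ↔ ⁅x, y⁆ ∈ Z := by
  rw [← commutatorElement_eq_one_iff_mul_comm, ← map_commutatorElement]
  exact QuotientGroup.eq_one_iff _

theorem mem_Y2 [Z.Normal] : x ∈ Y2 T Z ↔ x ∈ T ∧ ∀ t ∈ T, ⁅x, t⁆ ∈ Z :=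
  and_congr_right fun _ => ⟨fun h t ht => comm_mk.1
    (mem_centralizer_iff.1 h _ (mem_map_of_mem _ ht)).symm, fun h => mem_centralizer_iff.2 (by
      rintro _ ⟨t, ht, rfl⟩; exact (comm_mk.2 (h t ht)).symm)⟩

instance Y2_normal [Z.Normal] [hT : T.Normal] : (Y2 T Z).Normal := by
  have := hT.map _ (QuotientGroup.mk'_surjective Z)
  unfold Y2
  infer_instance

/-- The centre of `O₂(G)`. -/
abbrev ZT (G : Type*) [Group G] : Subgroup G := pCore 2 G ⊓ centralizer (pCore 2 G : Set G)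

/-- The second centre of `O₂(G)`. -/
abbrev YT (G : Type*) [Group G] : Subgroup G := Y2 (pCore 2 G) (ZT G)

/-- The centraliser of an element. -/
abbrev C1 (x : G) : Subgroup G := centralizer {x}

/-- The centre of `O₂(G)` is central. -/
structure CB (ρ : Representation K3 G V) (R : Subgroup G) (b z : G) : Prop extends Ctx ρ R b where
  z1 : z ≠ 1
  zc : ∀ g, z * g = g * z
  zv : ∀ v, ρ z v = -v
  mem : ∀ x, x ∈ ZT G ↔ x = 1 ∨ x = z

theorem c3 (b3 : b ^ 3 = 1) (x : G) : b * (b * (b * x * b⁻¹) * b⁻¹) * b⁻¹ = x := by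
  rw [show b * (b * (b * x * b⁻¹) * b⁻¹) * b⁻¹ = b ^ 3 * x * (b ^ 3)⁻¹ by
    rw [pow_succ, sq]; group, b3]; simp

variable [Finite G] [Group.IsSolvable G]

theorem Ctx.not_cen (C : Ctx ρ R b) : ¬ ∀ t ∈ pCore 2 G, ∀ g, t * g = g * t := fun h => by
  obtain ⟨q₁, q₂, q₃, v₁, v₂, v₃, F⟩ := C.fr
  have := h q₁ (C.cT (mem_centralizer_iff.2 fun t ht => h t ht q₁)) b
  exact F.q12 (by rw [← F.c1, ← this, mul_inv_cancel_right])

theorem Ctx.exists_cb (C : Ctx ρ R b) (h : ∀ x ∈ ZT G, x * b = b * x) : ∃ z, CB ρ R b z := by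
  have : Fact (Nat.Prime 2) := ⟨Nat.prime_two⟩
  obtain ⟨z, hz, z1⟩ := (bot_or_exists_ne_one _).resolve_left (PG.inf_centralizer_ne_bot
    (pCore_isPGroup 2 G) (pCore_isPGroup 2 G) le_normalizer fun e => C.not_cen fun t ht g => by
      rw [mem_bot.1 (e.le ht), one_mul, mul_one])
  have zv := (C.cen (C.norm_cen h hz)).resolve_left z1
  refine ⟨z, C, z1, C.norm_cen h hz, zv, fun x => ⟨fun hx => (C.cen (C.norm_cen h hx)).imp_right
    fun e => C.ext fun v => by rw [e, zv], ?_⟩⟩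
  rintro (rfl | rfl)
  exacts [one_mem _, hz]

theorem Ctx.two_of (C : Ctx ρ R b) (h : ∀ y ∈ R, ∀ p : ℕ, p.Prime → 5 ≤ p → y ^ p = 1 →
    ∀ t ∈ pCore 2 G, y * t * y⁻¹ = t) : R = pCore 2 G := by
  have : Fact (Nat.Prime 2) := ⟨Nat.prime_two⟩
  refine le_antisymm (le_pCore C.nR (isPGroup_of_forall_coprime_eq_one fun x hx ho => ?_)) C.TR
  by_contra x1
  obtain ⟨p, hp, m, hm⟩ := Nat.exists_prime_and_dvd (mt orderOf_eq_one_iff.1 x1)
  have m0 : m ≠ 0 := fun e => (orderOf_pos x).ne' (by rw [hm, e, mul_zero])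
  have y1 : x ^ m ≠ 1 := pow_ne_one_of_lt_orderOf m0 (by
    rw [hm]; exact lt_mul_left (Nat.pos_of_ne_zero m0) hp.one_lt)
  have yp : (x ^ m) ^ p = 1 := by rw [← pow_mul, mul_comm, ← hm, pow_orderOf_eq_one]
  have p2 : p ≠ 2 := fun e => by
    rw [hm, e] at ho
    exact absurd (Nat.Coprime.coprime_mul_right ho) (by norm_num)
  have p3 : p ≠ 3 := fun e => y1 (C.one_of_R (pow_mem hx m) (e ▸ yp))
  obtain ⟨k, hk⟩ := pCore_isPGroup 2 G ⟨_, C.cT (mem_centralizer_iff.2 fun t ht =>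
    (mul_inv_eq_iff_eq_mul.1 (h _ (pow_mem hx m) p hp (hp.five_le_of_ne_two_of_ne_three p2 p3) yp
      t ht)).symm)⟩
  exact y1 (eq_one_of_pow yp (congrArg Subtype.val hk)
    (((Nat.coprime_primes hp Nat.prime_two).2 p2).pow_right k))

namespace CB

variable (C : CB ρ R b z)
include C

theorem zz : z * z = 1 := C.toCtx.cen_sq C.zc

theorem zZ : z ∈ ZT G := (C.mem z).2 (Or.inr rfl)

theorem cZ (hx : x ∈ ZT G) (g : G) : x * g = g * x := by
  rcases (C.mem x).1 hx with rfl | rfl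
  exacts [by simp, C.zc g]

theorem card_Z : Nat.card (ZT G) = 2 := by
  rw [card_two (H := ⊥) bot_le C.zZ (fun e => C.z1 (mem_bot.1 e)) fun x hx => ?_, card_bot]
  rcases (C.mem x).1 hx with rfl | rfl
  exacts [Or.inl (one_mem _), Or.inr (mem_bot.2 C.zz)]

theorem ZY : ZT G ≤ YT G := fun x hx => mem_Y2.2 ⟨hx.1, fun t _ => by
  rw [commutatorElement_eq_one_iff_mul_comm.2 (C.cZ hx t)]; exact one_mem _⟩

theorem pm (hx : x ∈ YT G) (ht : t ∈ pCore 2 G) : t * x = x * t ∨ t * x = z * (x * t) := by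
  rcases (C.mem _).1 ((mem_Y2.1 hx).2 t ht) with e | e
  · exact Or.inl (commutatorElement_eq_one_iff_mul_comm.1 e).symm
  · right
    rw [← inv_eq_of_mul_eq_one_right C.zz, ← e, commutatorElement_def]; group

theorem flip (h : x * y = z * (y * x)) : y * x = z * (x * y) := by
  rw [h, ← mul_assoc, C.zz, one_mul]

theorem anti2 (h1 : s * x = z * (x * s)) (h2 : t * x = z * (x * t)) : s * t * x = x * (s * t) := by
  rw [mul_assoc, h2, ← mul_assoc, ← C.zc, mul_assoc, ← mul_assoc s, h1, ← mul_assoc, ← mul_assoc,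
    C.zz, one_mul, mul_assoc]

theorem nanti (h1 : s * x = z * (x * s)) : s * x ≠ x * s := fun e =>
  C.z1 (mul_eq_right.1 (h1.symm.trans e))

theorem sqZ (hx : x ∈ YT G) : x * x ∈ ZT G := ⟨mul_mem hx.1 hx.1, mem_centralizer_iff.2 fun t ht => by
  rcases C.pm hx ht with e | e
  · exact (Commute.mul_right e e).eq
  · exact (C.anti2 (C.flip e) (C.flip e)).symm⟩

theorem idx (hx : x ∈ YT G) (hK : K ≤ pCore 2 G) (hs : s ∈ K) (h : s * x = z * (x * s)) :
    ∀ t ∈ K, t ∈ K ⊓ C1 x ∨ t * s ∈ K ⊓ C1 x := fun t ht =>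
  (C.pm hx (hK ht)).imp (fun e => ⟨ht, mem_centralizer_singleton_iff.2 e⟩)
    fun e => ⟨K.mul_mem ht hs, mem_centralizer_singleton_iff.2 (C.anti2 e h)⟩

theorem four (h1 : x₁ ∈ YT G) (h2 : x₂ ∈ YT G) (t1 : s₁ ∈ pCore 2 G) (t2 : s₂ ∈ pCore 2 G)
    (a1 : s₁ * x₁ = z * (x₁ * s₁)) (a2 : s₂ * x₁ = x₁ * s₂) (a3 : s₂ * x₂ = z * (x₂ * s₂)) :
    Nat.card (pCore 2 G) = 4 * Nat.card (pCore 2 G ⊓ C1 x₁ ⊓ C1 x₂ : Subgroup G) ∧
      ∀ K : Subgroup G, pCore 2 G ⊓ C1 x₁ ⊓ C1 x₂ ≤ K → s₁ ∈ K → s₂ ∈ K → pCore 2 G ≤ K := by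
  have i1 := C.idx h1 le_rfl t1 a1
  have m2 : s₂ ∈ pCore 2 G ⊓ C1 x₁ := ⟨t2, mem_centralizer_singleton_iff.2 a2⟩
  have i2 := C.idx h2 inf_le_left m2 a3
  refine ⟨?_, fun K k0 k1 k2 t ht => ?_⟩
  · rw [card_two inf_le_left t1 (fun e => C.nanti a1 (mem_centralizer_singleton_iff.1 e.2)) i1,
      card_two inf_le_left m2 (fun e => C.nanti a3 (mem_centralizer_singleton_iff.1 e.2)) i2,
      ← mul_assoc]
    rfl
  · have k3 : pCore 2 G ⊓ C1 x₁ ≤ K := fun t ht =>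
      (i2 t ht).elim (fun e => k0 e) fun e => (mul_mem_cancel_right k2).1 (k0 e)
    exact (i1 t ht).elim (fun e => k3 e) fun e => (mul_mem_cancel_right k1).1 (k3 e)

theorem cjC (hx : x ∈ YT G) (ht : t ∈ pCore 2 G) (h : c * x = x * c) :
    t * c * t⁻¹ * x = x * (t * c * t⁻¹) := by
  have e : Commute c (t⁻¹ * x * t) := by
    rcases C.pm hx (inv_mem ht) with e | e <;> rw [e]
    · rwa [inv_mul_cancel_right]
    · rw [mul_assoc, inv_mul_cancel_right]; exact Commute.mul_right (C.zc c).symm h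
  calc _ = t * (c * (t⁻¹ * x * t)) * t⁻¹ := by group
    _ = _ := by rw [e.eq]; group

theorem cmC (hx : x ∈ YT G) (hs : s ∈ pCore 2 G) (ht : t ∈ pCore 2 G) : ⁅s, t⁆ * x = x * ⁅s, t⁆ := by
  rcases C.pm hx ht with e | e
  · rw [commutatorElement_def, mul_assoc _ t⁻¹, (Commute.inv_left e).eq, ← mul_assoc,
      C.cjC hx hs e, mul_assoc]
  · rcases C.pm hx hs with e' | e'
    · have := C.cjC hx ht (Commute.inv_left e').eq
      rw [show ⁅s, t⁆ = s * (t * s⁻¹ * t⁻¹) by rw [commutatorElement_def]; group]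
      exact (Commute.mul_left e' this).eq
    · have := C.cjC hx (inv_mem hs) (C.anti2 e' e)
      have k := Commute.mul_left (C.anti2 e' e) (Commute.inv_left this)
      rw [show ⁅s, t⁆ = s * t * (s⁻¹ * (s * t) * s⁻¹⁻¹)⁻¹ by rw [commutatorElement_def]; group]
      exact k.eq

theorem step (h1 : N ≤ pCore 2 G) (h2 : ∀ t ∈ pCore 2 G, ∀ x ∈ N, t * x * t⁻¹ ∈ N) (h3 : ZT G ≤ N)
    (h4 : ∀ x ∈ N, x ∈ YT G → x ∈ ZT G) : N = ZT G := by
  have : Fact (Nat.Prime 2) := ⟨Nat.prime_two⟩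
  by_contra hn
  obtain ⟨x, x1, x2, -, -, x3⟩ := PG.exists_step_elt (pCore_isPGroup 2 G)
    ((pCore_isPGroup 2 G).to_le h1) (M := ZT G) (by rw [normalizer_eq_top]; exact le_top)
    (fun t ht => mem_normalizer_fintype (h2 t ht)) (lt_of_le_of_ne h3 (Ne.symm hn))
  exact x2 (h4 x x1 (mem_Y2.2 ⟨h1 x1, fun t ht => x3 t (mem_sup_left ht)⟩))

theorem good (hb : ∀ w ∈ W, b * w * b⁻¹ ∈ W) (hy : y ∈ W) (h : b * y ≠ y * b) :
    ∃ x ∈ W, x ∉ ZT G ∧ b * (b * x * b⁻¹) * b⁻¹ * (b * x * b⁻¹) * x = 1 := by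
  refine ⟨b * y * b⁻¹ * y⁻¹, mul_mem (hb y hy) (inv_mem hy), fun e => ?_, ?_⟩
  · rcases (C.mem _).1 e with e | e
    · exact h (by rwa [mul_inv_eq_one, mul_inv_eq_iff_eq_mul] at e)
    · have e1 := c3 C.b3 y
      have e2 : b * z * b⁻¹ = z := by rw [← C.zc, mul_inv_cancel_right]
      rw [mul_inv_eq_iff_eq_mul] at e
      have e3 : b * (z * y) * b⁻¹ = y := by
        rw [← conj_mul, e2, e, ← mul_assoc, C.zz, one_mul]
      rw [e, e3, e, mul_eq_right] at e1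
      exact C.z1 e1
  · calc _ = b * (b * (b * y * b⁻¹) * b⁻¹) * b⁻¹ * y⁻¹ := by group
      _ = 1 := by rw [c3 C.b3, mul_inv_cancel]

theorem tri_of (hx : x ∈ YT G) (h0 : x ∉ ZT G)
    (h1 : b * (b * x * b⁻¹) * b⁻¹ * (b * x * b⁻¹) * x = 1)
    (h2 : x * (b * x * b⁻¹) = b * x * b⁻¹ * x) : Tri b x := by
  have e : b * (x * x) * b⁻¹ = x * x := by rw [← C.cZ (C.sqZ hx), mul_inv_cancel_right]
  have e2 : b * x * b⁻¹ * (b * x * b⁻¹) = x * x := by rw [conj_mul, e]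
  have e3 : b * (b * x * b⁻¹) * b⁻¹ * (b * (b * x * b⁻¹) * b⁻¹) = x * x := by rw [conj_mul, e2, e]
  have e4 : x * x * (x * x) = 1 := C.toCtx.cen_sq (C.cZ (C.sqZ hx))
  rw [mul_assoc, mul_eq_one_iff_eq_inv] at h1
  have e5 : x * x = 1 := by
    rw [← e3, h1, ← mul_inv_rev, inv_eq_one, mul_assoc, ← mul_assoc x, h2, mul_assoc _ x x,
      ← mul_assoc _ _ (x * x), e2, e4]
  refine ⟨fun k => h0 (k ▸ one_mem _), e5, ?_⟩
  rw [h1, mul_inv_rev, inv_eq_of_mul_eq_one_right e5, inv_eq_of_mul_eq_one_right (e2.trans e5)]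

/-- the rank argument -/
theorem rank (a1 : x * (b * x * b⁻¹) = z * (b * x * b⁻¹ * x)) (hy : y ∈ YT G) (h1 : y * x = x * y)
    (h2 : y * b = b * y) : y ∈ ZT G := by
  obtain ⟨q₁, q₂, q₃, v₁, v₂, v₃, F⟩ := C.toCtx.fr
  let f : V →ₗ[K3] V := (ρ b - 1) * (ρ b - 1)
  have hf : ∀ v, f v = ρ b (ρ b v - v) - (ρ b v - v) := fun v => rfl
  have s0 : v₁ + v₂ + v₃ ≠ 0 := fun e => one_ne_zero (F.ind (w := 0) (x := 1) (y := 1) (z := 1)
    (map_zero _) (map_zero _) (by linear_combination (norm := module) e)).2.1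
  have bs : ρ b (v₁ + v₂ + v₃) = v₁ + v₂ + v₃ := by
    rw [map_add, map_add, F.b1, F.b2, F.b3]; abel
  have fs : ∀ v, ∃ c : K3, f v = c • (v₁ + v₂ + v₃) := fun v => by
    obtain ⟨w, x, y, z, w1, w2, rfl⟩ := F.dec v
    refine ⟨x + y + z, ?_⟩
    simp only [hf, map_add, map_sub, map_smul, F.b1, F.b2, F.b3, F.fix0 w1 w2]
    linear_combination (norm := module) (-z) • three v₁ + (-x) • three v₂ + (-y) • three v₃
  have f1 : f v₁ = v₁ + v₂ + v₃ := by
    simp only [hf, map_sub, F.b1, F.b2]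
    linear_combination (norm := module) -three v₂
  generalize v₁ + v₂ + v₃ = s at s0 bs fs f1
  have key : ∀ y ∈ YT G, y * x = x * y → y * b = b * y → ρ y s = s → y = 1 := by
    intro y hy h1 h2 ys
    have yf : ∀ v, ρ y (f v) = f (ρ y v) := fun v => by simp only [hf, map_sub, rcomm h2]
    have y2 : y * y = 1 := ((C.mem _).1 (C.sqZ hy)).resolve_right fun e =>
      s0 (eq_zero_of_neg (by rw [← C.zv, ← e, rmul, ys, ys]))
    have bd : ∀ d, ρ y d = -d → ρ b d = d := fun d hd => by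
      obtain ⟨a, a', k1, k2, k3, -⟩ := split2 (ρ := ρ) y2 v₁
      have fa : f a = s := sub_eq_zero.1 (ind2 (ρ := ρ) (q := y) (c := f a')
        (by rw [map_sub, yf, k1, ys]) (by rw [yf, k2, map_neg])
        (by rw [← f1, k3, map_add]; abel)).1
      obtain ⟨i, j, l, h0, h⟩ := C.rk a (ρ b a - a) d
      have fa' : ρ b (ρ b a - a) = s + (ρ b a - a) := by rw [← fa, hf]; abel
      simp only [map_add, map_smul, fa'] at h
      obtain ⟨m1, m2⟩ := ind2 (ρ := ρ) (q := y) (a := i • (ρ b a - a) + j • s)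
        (c := l • (ρ b d - d)) (by simp only [map_add, map_smul, map_sub, rcomm h2, k1, ys])
        (by simp only [map_smul, map_sub, rcomm h2, hd, map_neg]; module)
        (by linear_combination (norm := module) h)
      have m3 := congrArg (ρ b) m1
      simp only [map_add, map_smul, fa', bs, map_zero] at m3
      have i0 : i = 0 := (smul_eq_zero.1
        (show i • s = 0 by linear_combination (norm := module) m3 - m1)).resolve_right s0
      rw [i0, zero_smul, zero_add] at m1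
      exact sub_eq_zero.1 ((smul_eq_zero.1 m2).resolve_left fun l0 =>
        h0 ⟨i0, (smul_eq_zero.1 m1).resolve_right s0, l0⟩)
    have xd : ∀ d, ρ y d = -d → ρ y (ρ x d) = -ρ x d := fun d hd => by rw [rcomm h1, hd, map_neg]
    have x2 : ∀ d, ρ y d = -d → ρ (b * x * b⁻¹) d = ρ x d := fun d hd => by
      conv_lhs => rw [← bd d hd, rconj, bd _ (xd d hd)]
    refine C.inj y fun v => ?_
    obtain ⟨a, d, k1, k2, k3, -⟩ := split2 (ρ := ρ) y2 v
    have e := congrArg (fun g => ρ g d) a1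
    simp only [rmul x, rmul z, rmul (b * x * b⁻¹), C.zv, x2 d k2, x2 _ (xd d k2)] at e
    have d0 : d = 0 := by_contra fun d0 => rne (rne d0) (eq_zero_of_neg e.symm)
    rw [k3, d0, add_zero, k1]
  obtain ⟨c, hc⟩ := fs (ρ y v₁)
  have ys : ρ y s = c • s := by rw [← hc, ← f1]; simp only [hf, map_sub, rcomm h2]
  rcases unit_cases c (fun e => rne s0 (by rw [ys, e, zero_smul])) with rfl | rfl
  · rw [key y hy h1 h2 (by rw [ys, one_smul])]; exact one_mem _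
  · have := key (y * z) (mul_mem hy (C.ZY C.zZ)) (Commute.mul_left h1 (C.zc x)).eq
      (Commute.mul_left h2 (C.zc b)).eq (by rw [rmul, C.zv, map_neg, ys]; simp)
    rw [eq_inv_of_mul_eq_one_left this]
    exact inv_mem C.zZ

theorem fix_card {p : ℕ} (hp : p.Prime) (hy : y ^ p = 1) :
    Nat.card (pCore 2 G) ≡ Nat.card (pCore 2 G ⊓ C1 y : Subgroup G) [MOD p] := by
  have := card_fix_conj hp hy (pCore 2 G : Set G) fun x hx => Normal.conj_mem inferInstance x hx y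
  rwa [show {x | x ∈ (pCore 2 G : Set G) ∧ y * x * y⁻¹ = x} = (pCore 2 G ⊓ C1 y : Subgroup G) from
    Set.ext fun x => and_congr_right fun _ => by
      rw [mul_inv_eq_iff_eq_mul, eq_comm]; exact mem_centralizer_singleton_iff.symm] at this

theorem fix_cases {k : ℕ} (hk : Nat.card (pCore 2 G) = 2 ^ k) (y : G) :
    (∀ t ∈ pCore 2 G, y * t * y⁻¹ = t) ∨
      ∃ j, 1 ≤ j ∧ j < k ∧ Nat.card (pCore 2 G ⊓ C1 y : Subgroup G) = 2 ^ j := by
  obtain ⟨j, hj, e⟩ := (Nat.dvd_prime_pow Nat.prime_two).1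
    (hk ▸ card_dvd_of_le (inf_le_left : pCore 2 G ⊓ C1 y ≤ _))
  rcases hj.eq_or_lt with rfl | hj
  · exact Or.inl fun t ht => mul_inv_eq_iff_eq_mul.2 (mem_centralizer_singleton_iff.1
      ((eq_of_le_of_card_ge inf_le_left (hk.trans e.symm).le).ge ht).2).symm
  · refine Or.inr ⟨j, Nat.pos_of_ne_zero fun j0 => ?_, hj, e⟩
    rw [j0, pow_zero, card_eq_one] at e
    exact C.z1 (mem_bot.1 (e ▸ ⟨C.zZ.1, mem_centralizer_singleton_iff.2 (C.zc y)⟩))

theorem exists_triY : ∃ x ∈ YT G, x ∉ ZT G ∧ Tri b x := by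
  by_contra hn
  have nY : ∀ w ∈ YT G, b * w * b⁻¹ ∈ YT G := fun w hw => Normal.conj_mem inferInstance w hw b
  have an : ∀ x ∈ YT G, x ∉ ZT G → b * (b * x * b⁻¹) * b⁻¹ * (b * x * b⁻¹) * x = 1 →
      x * (b * x * b⁻¹) = z * (b * x * b⁻¹ * x) := fun x hx h0 h1 =>
    (C.pm (nY x hx) hx.1).resolve_left fun e => hn ⟨x, hx, h0, C.tri_of hx h0 h1 e⟩
  obtain ⟨y, hy, yb⟩ : ∃ y ∈ YT G, b * y ≠ y * b := by
    by_contra k
    push Not at k
    have e := C.step le_rfl (fun t _ x hx => Normal.conj_mem inferInstance x hx t) inf_le_left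
      fun x hx h => ⟨hx, mem_centralizer_iff.2 fun t _ =>
        (C.toCtx.norm_cen (fun n hn => (k n hn).symm) h t).symm⟩
    exact C.toCtx.not_cen fun t ht => C.cZ (e ▸ ht)
  obtain ⟨x, hx, x0, x1⟩ := C.good nY hy yb
  have a1 := an x hx x0 x1
  have hx2 := nY x hx
  have m : ∀ w, w ∈ YT G ⊓ C1 x ⊓ C1 (b * x * b⁻¹) ↔ w ∈ YT G ∧ Commute w x ∧
      Commute w (b * x * b⁻¹) := fun w => by
    simp only [mem_inf, mem_centralizer_singleton_iff, and_assoc]; rfl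
  have m3 : ∀ w, Commute w x → Commute w (b * x * b⁻¹) → Commute w (b * (b * x * b⁻¹) * b⁻¹) :=
    fun w c1 c2 => by
      rw [eq_inv_of_mul_eq_one_left ((mul_assoc _ _ _).symm.trans x1)]
      exact (c2.mul_right c1).inv_right
  have nW : ∀ w ∈ YT G ⊓ C1 x ⊓ C1 (b * x * b⁻¹), b * w * b⁻¹ ∈ YT G ⊓ C1 x ⊓ C1 (b * x * b⁻¹) :=
    fun w hw => by
      obtain ⟨k1, k2, k3⟩ := (m w).1 hw
      exact (m _).2 ⟨nY w k1, by have := (m3 w k2 k3).conj b; rwa [c3 C.b3] at this, k2.conj b⟩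
  have bW : ∀ w ∈ YT G ⊓ C1 x ⊓ C1 (b * x * b⁻¹), b * w = w * b := fun w hw => by
    by_contra k
    obtain ⟨x', hx', x0', x1'⟩ := C.good nW hw k
    obtain ⟨k1, k2, k3⟩ := (m _).1 hx'
    obtain ⟨-, k4, k5⟩ := (m _).1 (nW _ hx')
    have a2 := an x' k1 x0' x1'
    have k6 := ((m _).1 (nW _ (nW _ hx'))).2
    have k7 : x * x' ∉ ZT G := fun e => C.nanti a1 (mul_right_cancel (b := x') (by
      rw [mul_assoc, ← k3.eq, ← mul_assoc, C.cZ e, mul_assoc (b * x * b⁻¹)]))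
    refine hn ⟨x * x', mul_mem hx k1, k7, C.tri_of (mul_mem hx k1) k7 ?_ ?_⟩
    · rw [show b * (x * x') * b⁻¹ = b * x * b⁻¹ * (b * x' * b⁻¹) from conj_mul.symm,
        show b * (b * x * b⁻¹ * (b * x' * b⁻¹)) * b⁻¹ =
          b * (b * x * b⁻¹) * b⁻¹ * (b * (b * x' * b⁻¹) * b⁻¹) from conj_mul.symm]
      generalize b * (b * x * b⁻¹) * b⁻¹ = x₃, b * (b * x' * b⁻¹) * b⁻¹ = x₃' at *
      generalize b * x * b⁻¹ = x₂, b * x' * b⁻¹ = x₂' at *
      calc _ = x₃ * (x₃' * x₂) * (x₂' * x) * x' := by group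
        _ = x₃ * x₂ * (x₃' * x) * x₂' * x' := by rw [k6.2.eq, k4.eq]; group
        _ = x₃ * x₂ * x * (x₃' * x₂' * x') := by rw [k6.1.eq]; group
        _ = 1 := by rw [x1, x1', mul_one]
    · rw [← conj_mul]
      generalize b * x * b⁻¹ = x₂, b * x' * b⁻¹ = x₂' at *
      calc _ = x * (x' * x₂) * x₂' := by group
        _ = x * x₂ * (x' * x₂') := by rw [k3.eq]; group
        _ = z * (x₂ * x * z) * x₂' * x' := by rw [a1, a2]; group
        _ = x₂ * (x * x₂') * x' := by rw [← C.zc, ← mul_assoc z, C.zz]; group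
        _ = _ := by rw [← k4.eq]; group
  have e := C.step (N := pCore 2 G ⊓ C1 x ⊓ C1 (b * x * b⁻¹)) (inf_le_left.trans inf_le_left)
    (fun t ht c hc => ⟨⟨Normal.conj_mem inferInstance c hc.1.1 t, mem_centralizer_singleton_iff.2
      (C.cjC hx ht (mem_centralizer_singleton_iff.1 hc.1.2))⟩, mem_centralizer_singleton_iff.2
      (C.cjC hx2 ht (mem_centralizer_singleton_iff.1 hc.2))⟩)
    (fun c hc => ⟨⟨hc.1, mem_centralizer_singleton_iff.2 (C.cZ hc _)⟩,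
      mem_centralizer_singleton_iff.2 (C.cZ hc _)⟩)
    fun c hc h => C.rank a1 h (mem_centralizer_singleton_iff.1 hc.1.2) (bW c ⟨⟨h, hc.1.2⟩, hc.2⟩).symm
  obtain ⟨k1, k2⟩ := C.four hx hx2 hx2.1 hx.1 (C.flip a1) rfl a1
  rw [e] at k1 k2
  rw [C.card_Z] at k1
  have RT := C.toCtx.two_of fun y _ p hp h5 yp => (C.fix_cases (k := 3) k1 y).resolve_right (by
    rintro ⟨j, j1, j2, hj⟩
    have := C.fix_card hp yp
    rw [k1, hj] at this
    have d := (Nat.modEq_iff_dvd' (Nat.pow_le_pow_right two_pos j2.le)).1 this.symm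
    have := Nat.le_of_dvd (by interval_cases j <;> norm_num) d
    interval_cases j <;> interval_cases p <;> first | omega | exact absurd hp (by norm_num))
  obtain ⟨q, T⟩ := C.tri
  obtain ⟨v₁, v₂, v₃, F⟩ := T.exists_fr C.inj C.b3 C.rk
  refine hn ⟨q, k2 _ C.ZY hx2 hx (RT ▸ C.toCtx.mem_R (k := 1) ((sq q).trans T.sq)), fun e => ?_, T⟩
  exact F.q12 (by rw [← C.cZ e, mul_inv_cancel_right])

end CB

end Cfsg.Lib.Cub
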