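import Cfsg.Agent.Cub.C

/-!
# Four-groups normalised by an element of order three with a single cubic block: the extraspecial case
-/

set_option autoImplicit false
set_option linter.unusedSectionVars false

namespace Cfsg.Lib.Cub

open Subgroup Cfsg.Lib.Solv
open scoped commutatorElement

variable {G V : Type*} [Group G] [AddCommGroup V] [Module K3 V] {ρ : Representation K3 G V}
  {b c d g q₁ q₂ q₃ t t₁ x y z : G} {v₁ v₂ v₃ : V} {D R : Subgroup G} [Finite G] [Group.IsSolvable G]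

namespace CB

variable (C : CB ρ R b z)
include C

theorem acj (h : t * x = z * (x * t)) (g : G) :
    g * t * g⁻¹ * (g * x * g⁻¹) = z * (g * x * g⁻¹ * (g * t * g⁻¹)) := by
  rw [conj_mul, conj_mul, h, ← mul_assoc g, ← C.zc]; group

theorem amul (h1 : t * x = x * t) (h2 : t * y = z * (y * t)) : t * (x * y) = z * (x * y * t) := by
  rw [← mul_assoc, h1, mul_assoc, h2, ← mul_assoc, ← C.zc]; group

variable (F : Fr ρ b q₁ q₂ q₃ v₁ v₂ v₃)
include F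

theorem exists_t (y1 : q₁ ∈ YT G) (n1 : q₁ ∉ ZT G) :
    ∃ t ∈ pCore 2 G, t * q₁ = q₁ * t ∧ t * q₂ = z * (q₂ * t) := by
  have nT : ∀ t ∈ pCore 2 G, b * t * b⁻¹ ∈ pCore 2 G := fun t ht =>
    Normal.conj_mem inferInstance t ht b
  obtain ⟨t, ht, a1⟩ : ∃ t ∈ pCore 2 G, t * q₁ = z * (q₁ * t) := by
    by_contra k
    push Not at k
    exact n1 ⟨y1.1, mem_centralizer_iff.2 fun t ht => (C.pm y1 ht).resolve_right (k t ht)⟩
  rcases C.pm (F.c1 ▸ Normal.conj_mem inferInstance _ y1 b) ht with a2 | a2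
  · have k1 : Commute _ _ := (Commute.conj (Commute.conj a2 b) b)
    have k2 := C.acj (C.acj a1 b) b
    rw [F.c2, F.c3] at k1
    rw [F.c1, F.c2] at k2
    exact ⟨_, nT _ (nT t ht), k1.eq, F.rot.rot.p21 ▸ C.amul k1.eq k2⟩
  · have k1 : Commute _ _ := Commute.conj (C.anti2 (C.flip a1) (C.flip a2)).symm b
    have k2 := C.acj a1 b
    rw [F.p12, F.c3] at k1
    rw [F.c1] at k2
    exact ⟨_, nT t ht, k1.eq, k2⟩

theorem mem_Q (a1 : t * q₁ = q₁ * t) (a2 : t * q₂ = z * (q₂ * t)) (h1 : d * q₁ = q₁ * d)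
    (h2 : d * q₂ = q₂ * d) : d ∈ F.Q ∨ d * z ∈ F.Q := by
  obtain ⟨v₀, hv⟩ : ∃ v₀, ρ t v₀ = v₁ := ⟨_, rinv' t v₁⟩
  have v0 : v₀ ≠ 0 := fun e => F.ne (by rw [← hv, e, map_zero])
  have e1 : ρ q₁ v₀ = v₀ := rinj (ρ := ρ) (g := t) (by rw [rcomm a1, hv, F.e11])
  have e2 : ρ q₂ v₀ = v₀ := rinj (ρ := ρ) (g := t) (by
    rw [← rmul, a2, rmul, C.zv, rmul, hv, F.e21, neg_neg])
  have e3 : ρ q₃ v₀ = v₀ := by rw [← F.p12, rmul, e2, e1]
  have l0 : ∀ w, ρ q₁ w = w → ρ q₂ w = w → ∃ c : K3, w = c • v₀ := fun w w1 w2 => by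
    obtain ⟨c, hc⟩ := F.line (a := ρ t w) (by rw [← rcomm a1, w1])
      (by rw [← rmul, C.flip a2, rmul, C.zv, rmul, w2])
    exact ⟨c, rinj (ρ := ρ) (g := t) (by rw [hc, map_smul, hv])⟩
  have dec : ∀ v, ∃ c x y z : K3, v = c • v₀ + x • v₁ + y • v₂ + z • v₃ := fun v => by
    obtain ⟨w, x, y, z, w1, w2, e⟩ := F.dec v
    obtain ⟨c, hc⟩ := l0 w w1 w2
    exact ⟨c, x, y, z, hc ▸ e⟩
  have li : LinearIndependent K3 ![v₀, v₁, v₂, v₃] :=
    Fintype.linearIndependent_iff.2 fun c e i => by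
      obtain ⟨k0, k1, k2, k3⟩ := F.ind (w := c 0 • v₀) (x := c 1) (y := c 2) (z := c 3)
        (by rw [map_smul, e1]) (by rw [map_smul, e2]) (by simpa [Fin.sum_univ_four] using e)
      fin_cases i
      exacts [(smul_eq_zero.1 k0).resolve_right v0, k1, k2, k3]
  have sp : ⊤ ≤ Submodule.span K3 (Set.range ![v₀, v₁, v₂, v₃]) := fun v _ => by
    obtain ⟨c, x, y, z, rfl⟩ := dec v
    exact add_mem (add_mem (add_mem (Submodule.smul_mem _ _ (Submodule.subset_span ⟨0, rfl⟩))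
      (Submodule.smul_mem _ _ (Submodule.subset_span ⟨1, rfl⟩)))
      (Submodule.smul_mem _ _ (Submodule.subset_span ⟨2, rfl⟩)))
      (Submodule.smul_mem _ _ (Submodule.subset_span ⟨3, rfl⟩))
  have key : ∀ r, r * q₁ = q₁ * r → r * q₂ = q₂ * r → ρ r v₀ = v₀ → r ∈ F.Q := by
    intro r h1 h2 a0
    have ex : ∀ h : G, ρ h v₀ = v₀ → ρ r v₁ = ρ h v₁ → ρ r v₂ = ρ h v₂ → ρ r v₃ = ρ h v₃ → r = h :=
      fun h k0 k1 k2 k3 => C.toCtx.ext fun v => by
        obtain ⟨c, x, y, z, rfl⟩ := dec v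
        simp only [map_add, map_smul, a0, k0, k1, k2, k3]
    have dt : ∀ x y z : K3, ρ r v₁ = x • v₁ → ρ r v₂ = y • v₂ → ρ r v₃ = z • v₃ → x * y * z = 1 :=
      fun x y z a1 a2 a3 => by
        have := det_diag _ li sp (ρ r) ![1, x, y, z]
          (fun i => by fin_cases i; exacts [a0.trans (one_smul _ _).symm, a1, a2, a3])
        rw [C.toCtx.det, Fin.prod_univ_four] at this
        simpa using this.symm
    have h3 := F.cm3 h1.symm h2.symm
    have o : ∀ v : V, v = (1 : K3) • v := fun v => (one_smul _ v).symm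
    have m : ∀ v : V, -v = (-1 : K3) • v := fun v => (neg_one_smul _ v).symm
    rcases F.sgn h1.symm h2.symm with a1 | a1 <;> rcases F.rot.sgn h2.symm h3 with a2 | a2 <;>
      rcases F.rot.rot.sgn h3 h1.symm with a3 | a3
    · exact Or.inl (ex _ (rone _) (by rw [a1, rone]) (by rw [a2, rone]) (by rw [a3, rone]))
    · exact absurd (dt _ _ _ (a1.trans (o _)) (a2.trans (o _)) (a3.trans (m _))) (by decide)
    · exact absurd (dt _ _ _ (a1.trans (o _)) (a2.trans (m _)) (a3.trans (o _))) (by decide)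
    · exact Or.inr (Or.inl (ex _ e1 (by rw [a1, F.e11]) (by rw [a2, F.e12]) (by rw [a3, F.e13])))
    · exact absurd (dt _ _ _ (a1.trans (m _)) (a2.trans (o _)) (a3.trans (o _))) (by decide)
    · exact Or.inr (Or.inr (Or.inl
        (ex _ e2 (by rw [a1, F.e21]) (by rw [a2, F.e22]) (by rw [a3, F.e23]))))
    · exact Or.inr (Or.inr (Or.inr
        (ex _ e3 (by rw [a1, F.e31]) (by rw [a2, F.e32]) (by rw [a3, F.e33]))))
    · exact absurd (dt _ _ _ (a1.trans (m _)) (a2.trans (m _)) (a3.trans (m _))) (by decide)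
  obtain ⟨c, hc⟩ := l0 (ρ d v₀) (by rw [← rcomm h1, e1]) (by rw [← rcomm h2, e2])
  rcases unit_cases c (fun e => rne v0 (by rw [hc, e, zero_smul])) with rfl | rfl
  · exact Or.inl (key d h1 h2 (by rw [hc, one_smul]))
  · exact Or.inr (key _ (Commute.mul_left h1 (C.zc _)).eq (Commute.mul_left h2 (C.zc _)).eq
      (by rw [rmul, C.zv, map_neg, hc]; simp))

theorem count (y1 : q₁ ∈ YT G) (y2 : q₂ ∈ YT G) (hY : pCore 2 G ≤ YT G)
    (hD : D = pCore 2 G ⊓ C1 q₁ ⊓ C1 q₂) (sq : ∀ d ∈ D, d * d = 1) (c8 : Nat.card D = 8)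
    (c32 : Nat.card (pCore 2 G) = 32) : Nat.card {x | x ∈ pCore 2 G ∧ x * x = z} = 12 := by
  classical
  have mD : ∀ x, x ∈ D ↔ x ∈ pCore 2 G ∧ x * q₁ = q₁ * x ∧ x * q₂ = q₂ * x := fun x => by
    simp only [hD, mem_inf, mem_centralizer_singleton_iff, and_assoc]
  have d1 : q₁ ∈ D := (mD _).2 ⟨y1.1, rfl, F.com⟩
  have d2 : q₂ ∈ D := (mD _).2 ⟨y2.1, F.com.symm, rfl⟩
  let φ : G → G := fun x => if x * q₁ = q₁ * x then x * q₂ else x * q₁
  have φφ : ∀ x, φ (φ x) = x := fun x => by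
    by_cases k : x * q₁ = q₁ * x
    · have : x * q₂ * q₁ = q₁ * (x * q₂) := (Commute.mul_left k F.com.symm).eq
      simp only [φ, if_pos k, if_pos this, mul_assoc x, F.s2, mul_one]
    · have : ¬ x * q₁ * q₁ = q₁ * (x * q₁) := fun e => k (by rwa [← mul_assoc, mul_left_inj] at e)
      simp only [φ, if_neg k, if_neg this]
      rw [mul_assoc, F.s1, mul_one]
  have an : ∀ x q : G, q * q = 1 → x * q = z * (q * x) → x * q * (x * q) = z * (x * x) :=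
    fun x q q2 e => by
      rw [mul_assoc, ← mul_assoc q, C.flip e, mul_assoc, mul_assoc, q2, mul_one, ← mul_assoc,
        ← C.zc, mul_assoc]
  have φs : ∀ x ∈ pCore 2 G, x ∉ D → φ x ∈ pCore 2 G ∧ φ x ∉ D ∧ φ x * φ x = z * (x * x) :=
    fun x hx h0 => by
      by_cases k : x * q₁ = q₁ * x
      · simp only [φ, if_pos k]
        exact ⟨mul_mem hx y2.1, fun e => h0 ((mul_mem_cancel_right d2).1 e), an _ _ F.s2
          ((C.pm y2 hx).resolve_left fun e => h0 ((mD _).2 ⟨hx, k, e⟩))⟩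
      · simp only [φ, if_neg k]
        exact ⟨mul_mem hx y1.1, fun e => h0 ((mul_mem_cancel_right d1).1 e), an _ _ F.s1
          ((C.pm y1 hx).resolve_left k)⟩
  have e1 : {x | x ∈ pCore 2 G ∧ x * x = z}.ncard =
      {x | (x ∈ pCore 2 G ∧ x ∉ D) ∧ x * x = 1}.ncard :=
    Set.ncard_congr (fun x _ => φ x) (fun x hx => by
      obtain ⟨k1, k2, k3⟩ := φs x hx.1 fun e => C.z1 (hx.2.symm.trans (sq x e))
      exact ⟨⟨k1, k2⟩, by rw [k3, hx.2, C.zz]⟩) (fun x y _ _ e => by rw [← φφ x, e, φφ])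
      fun x hx => by
        obtain ⟨k1, -, k3⟩ := φs x hx.1.1 hx.1.2
        exact ⟨φ x, ⟨k1, by rw [k3, hx.2, mul_one]⟩, φφ x⟩
  have e2 : (pCore 2 G : Set G) = (D : Set G) ∪ ({x | x ∈ pCore 2 G ∧ x * x = z} ∪
      {x | (x ∈ pCore 2 G ∧ x ∉ D) ∧ x * x = 1}) := Set.ext fun x => ⟨fun hx => by
        by_cases k : x ∈ D
        · exact Or.inl k
        · exact Or.inr (((C.mem _).1 (C.sqZ (hY hx))).symm.imp (fun e => ⟨hx, e⟩) fun e => ⟨⟨hx, k⟩, e⟩),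
      fun hx => hx.elim (fun e => ((mD x).1 e).1) fun e => e.elim And.left fun e => e.1.1⟩
  have e3 := congrArg Set.ncard e2
  rw [Set.ncard_union_eq (Set.disjoint_left.2 fun x hx e => e.elim
      (fun e => C.z1 (e.2.symm.trans (sq x hx))) fun e => e.1.2 hx),
    Set.ncard_union_eq (Set.disjoint_left.2 fun x hx e => C.z1 (hx.2.symm.trans e.2)), ← e1,
    ← Nat.card_coe_set_eq, ← Nat.card_coe_set_eq (D : Set G), ← Nat.card_coe_set_eq] at e3
  simp only [SetLike.coe_sort_coe, c8, c32] at e3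
  omega

omit F in
theorem caseB : IsExtraspecial 2 R ∧ Nat.card R = 32 ∧
    ∃ A : Subgroup G, A ≤ R ∧ IsElementaryAbelian 2 A ∧ Nat.card A = 8 := by
  have : Fact (Nat.Prime 2) := ⟨Nat.prime_two⟩
  obtain ⟨q₁, y1, n1, T⟩ := C.exists_triY
  obtain ⟨v₁, v₂, v₃, F⟩ := T.exists_fr C.inj C.b3 C.rk
  generalize b * (b * q₁ * b⁻¹) * b⁻¹ = q₃ at F
  generalize b * q₁ * b⁻¹ = q₂ at F
  have nT : ∀ t ∈ pCore 2 G, b * t * b⁻¹ ∈ pCore 2 G := fun t ht =>
    Normal.conj_mem inferInstance t ht b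
  have y2 : q₂ ∈ YT G := F.c1 ▸ Normal.conj_mem inferInstance _ y1 b
  have y3 : q₃ ∈ YT G := F.c2 ▸ Normal.conj_mem inferInstance _ y2 b
  have n3 : q₃ ∉ ZT G := fun e => n1 (F.c3 ▸ Normal.conj_mem inferInstance _ e b)
  have n2 : q₂ ∉ ZT G := fun e => n3 (F.c2 ▸ Normal.conj_mem inferInstance _ e b)
  obtain ⟨t₁, m1, a11, a12⟩ := C.exists_t F y1 n1
  have a13 : t₁ * q₃ = z * (q₃ * t₁) := F.p12 ▸ C.amul a11 a12
  have m2 := nT _ m1
  have m3 := nT _ m2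
  have a22 : Commute _ _ := Commute.conj a11 b
  have a21 := C.acj a13 b
  have a23 := C.acj a12 b
  have a32 := C.acj a21 b
  have a31 := C.acj a23 b
  simp only [F.c1, F.c2, F.c3] at a22 a21 a23 a32 a31
  obtain ⟨k1, k2⟩ := C.four y1 y2 m2 m1 a21 a11 a12
  generalize hD : pCore 2 G ⊓ C1 q₁ ⊓ C1 q₂ = D at k1 k2
  have mD : ∀ x, x ∈ D ↔ x ∈ pCore 2 G ∧ x * q₁ = q₁ * x ∧ x * q₂ = q₂ * x := fun x => by
    simp only [← hD, mem_inf, mem_centralizer_singleton_iff, and_assoc]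
  have dQ : ∀ d ∈ D, d ∈ F.Q ∨ d * z ∈ F.Q := fun d hd =>
    C.mem_Q F a11 a12 ((mD d).1 hd).2.1 ((mD d).1 hd).2.2
  have QY : F.Q ≤ YT G := by
    rintro _ (rfl | rfl | rfl | rfl)
    exacts [one_mem _, y1, y2, y3]
  have QD : F.Q ≤ D := fun x hx => (mD x).2 ⟨(QY hx).1,
    congrArg Subtype.val ((ea_of_sq fun x => F.Q_sq).1.1.1 ⟨x, hx⟩ ⟨q₁, Or.inr (Or.inl rfl)⟩),
    congrArg Subtype.val ((ea_of_sq fun x => F.Q_sq).1.1.1 ⟨x, hx⟩
      ⟨q₂, Or.inr (Or.inr (Or.inl rfl))⟩)⟩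
  have c8 : Nat.card D = 8 := by
    rw [card_two QD ((mD z).2 ⟨C.zZ.1, C.zc _, C.zc _⟩) ?_ dQ, F.card_Q]
    rintro (e | e | e | e)
    exacts [C.z1 e, n1 (e ▸ C.zZ), n2 (e ▸ C.zZ), n3 (e ▸ C.zZ)]
  have sq : ∀ d ∈ D, d * d = 1 := fun d hd => (dQ d hd).elim F.Q_sq fun e => by
    have := F.Q_sq e
    rwa [mul_assoc, C.zc, mul_assoc, C.zz, mul_one] at this
  have DY : D ≤ YT G := fun d hd => (dQ d hd).elim (fun e => QY e) fun e =>
    (mul_mem_cancel_right (C.ZY C.zZ)).1 (QY e)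
  rw [c8] at k1
  have cZ : ⁅t₁, b * t₁ * b⁻¹⁆ ∈ ZT G := by
    let π := QuotientGroup.mk' (ZT G)
    have cD : ⁅t₁, b * t₁ * b⁻¹⁆ ∈ D := (mD _).2 ⟨mul_mem (mul_mem (mul_mem m1 m2) (inv_mem m1))
      (inv_mem m2), C.cmC y1 m1 m2, C.cmC y2 m1 m2⟩
    have e : π (b * ⁅t₁, b * t₁ * b⁻¹⁆ * b⁻¹) = π ⁅t₁, b * t₁ * b⁻¹⁆ := by
      rw [conjugate_commutatorElement]
      generalize b * (b * t₁ * b⁻¹) * b⁻¹ = t₃ at *
      generalize b * t₁ * b⁻¹ = t₂ at *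
      have i1 : t₁ * t₂ * q₁ = z * (q₁ * (t₁ * t₂)) := C.flip (C.amul a11.symm (C.flip a21))
      have i2 : t₁ * t₂ * q₂ = z * (q₂ * (t₁ * t₂)) := by
        rw [mul_assoc, a22.eq, ← mul_assoc, a12]; group
      have inv : ∀ s q : G, s * q = z * (q * s) → s⁻¹ * q = z * (q * s⁻¹) := fun s q e => by
        rw [inv_mul_eq_iff_eq_mul, ← mul_assoc, ← C.zc, mul_assoc, ← mul_assoc s, e, ← mul_assoc,
          ← mul_assoc, C.zz, one_mul, mul_inv_cancel_right]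
      have dD : t₃ * (t₁ * t₂)⁻¹ ∈ D := (mD _).2 ⟨mul_mem m3 (inv_mem (mul_mem m1 m2)),
        C.anti2 a31 (inv _ _ i1), C.anti2 a32 (inv _ _ i2)⟩
      have c1 := comm_mk.2 ((mem_Y2.1 (DY dD)).2 _ m2)
      have c2 : t₃ * (t₁ * t₂)⁻¹ * ⁅t₁, t₂⁆ = ⁅t₁, t₂⁆ * (t₃ * (t₁ * t₂)⁻¹) :=
        congrArg Subtype.val ((ea_of_sq sq).1.1.1 ⟨_, dD⟩ ⟨_, cD⟩)
      rw [show t₃ = t₃ * (t₁ * t₂)⁻¹ * (t₁ * t₂) by group]
      generalize t₃ * (t₁ * t₂)⁻¹ = d at c1 c2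
      have c3 : d * ⁅t₁, t₂⁆⁻¹ * d⁻¹ = ⁅t₁, t₂⁆ := by
        rw [inv_eq_of_mul_eq_one_right (sq _ cD)]; exact mul_inv_eq_iff_eq_mul.2 c2
      rw [← c3, show ⁅t₂, d * (t₁ * t₂)⁆ = t₂ * d * (t₁ * t₂⁻¹ * t₁⁻¹ * d⁻¹) by
        rw [commutatorElement_def]; group, map_mul, map_mul, ← c1, ← map_mul, ← map_mul]
      congr 1
      rw [commutatorElement_def]; group
    generalize ⁅t₁, b * t₁ * b⁻¹⁆ = c at cD e
    have key : ∀ c ∈ F.Q, π (b * c * b⁻¹) = π c → c ∈ ZT G := by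
      have k : ∀ x y : G, x * x = 1 → π x = π y → x * y ∈ ZT G := fun x y x2 e => by
        have := QuotientGroup.eq.1 e
        rwa [inv_eq_of_mul_eq_one_right x2] at this
      rintro _ (rfl | rfl | rfl | rfl) e
      · exact one_mem _
      · rw [F.c1] at e; exact absurd (F.p21 ▸ k _ _ F.s2 e) n3
      · rw [F.c2] at e; exact absurd (F.rot.p21 ▸ k _ _ F.s3 e) n1
      · rw [F.c3] at e; exact absurd (F.rot.rot.p21 ▸ k _ _ F.s1 e) n2
    have πz : π z = 1 := (QuotientGroup.eq_one_iff z).2 C.zZ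
    refine (dQ c cD).elim (fun k => key c k e) fun k => (mul_mem_cancel_right C.zZ).1 (key _ k ?_)
    rw [← conj_mul, map_mul, e, map_mul π c, map_mul, map_mul, πz, mul_one, ← map_mul,
      mul_inv_cancel, map_one]
  have t1Y : t₁ ∈ YT G := mem_Y2.2 ⟨m1, fun t ht => comm_mk.1 (mem_centralizer_singleton_iff.1
    (k2 ((C1 (QuotientGroup.mk' (ZT G) t₁)).comap (QuotientGroup.mk' (ZT G)))
      (fun d hd => mem_centralizer_singleton_iff.2 (comm_mk.2 ((mem_Y2.1 (DY hd)).2 _ m1)))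
      (mem_centralizer_singleton_iff.2 (comm_mk.2 cZ).symm)
      (mem_centralizer_singleton_iff.2 rfl) ht)).symm⟩
  have TY : pCore 2 G ≤ YT G := k2 _ DY (Normal.conj_mem inferInstance _ t1Y b) t1Y
  have cnt := C.count F y1 y2 TY hD.symm sq c8 k1
  have RT := C.toCtx.two_of fun y _ p hp h5 yp => (C.fix_cases (k := 5) k1 y).resolve_right (by
    rintro ⟨j, j1, j2, hj⟩
    have e1 := C.fix_card hp yp
    have e2 := card_fix_conj hp yp {x | x ∈ pCore 2 G ∧ x * x = z} fun x hx =>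
      ⟨Normal.conj_mem inferInstance x hx.1 y, by
        rw [conj_mul, hx.2, ← C.zc, mul_inv_cancel_right]⟩
    have e3 : Nat.card {x | x ∈ {x | x ∈ pCore 2 G ∧ x * x = z} ∧ y * x * y⁻¹ = x} < 2 ^ j := by
      rw [← hj, Nat.card_coe_set_eq]
      refine Set.ncard_lt_ncard (t := ((pCore 2 G ⊓ C1 y : Subgroup G) : Set G))
        (Set.ssubset_iff_subset_ne.2 ⟨fun x hx => ⟨hx.1.1, mem_centralizer_singleton_iff.2
          (mul_inv_eq_iff_eq_mul.1 hx.2).symm⟩, fun e => C.z1 ?_⟩)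
      rw [← (e.ge (one_mem _)).1.2, mul_one]
    rw [k1, hj] at e1
    rw [cnt] at e2
    generalize Nat.card {x | x ∈ {x | x ∈ pCore 2 G ∧ x * x = z} ∧ y * x * y⁻¹ = x} = m at e2 e3
    have d := (Nat.modEq_iff_dvd' (Nat.pow_le_pow_right two_pos j2.le)).1 e1.symm
    have := Nat.le_of_dvd (by interval_cases j <;> norm_num) d
    unfold Nat.ModEq at e2
    interval_cases j <;> interval_cases p <;> first | omega | exact absurd hp (by norm_num))
  rw [RT]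
  exact ⟨PG.isExtraspecial_of C.card_Z (commutator_le.2 fun g hg h hh =>
    ((mem_Y2.1 (TY hg)).2 h hh).2) fun e => n1 ⟨y1.1, e y1.1⟩, k1, D,
    hD ▸ inf_le_left.trans inf_le_left, ea_of_sq sq, c8⟩

end CB

theorem Ctx.main (C : Ctx ρ R b) : (IsElementaryAbelian 2 R ∧ Nat.card R = 4) ∨
    (IsExtraspecial 2 R ∧ Nat.card R = 32 ∧
      ∃ A : Subgroup G, A ≤ R ∧ IsElementaryAbelian 2 A ∧ Nat.card A = 8) := by
  by_cases h : ∀ x ∈ ZT G, x * b = b * x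
  · obtain ⟨z, C'⟩ := C.exists_cb h
    exact Or.inr C'.caseB
  · push Not at h
    obtain ⟨y, hy, yb⟩ := h
    obtain ⟨q, hq, T⟩ := exists_tri (A := ZT G) C.b3 ((pCore_isPGroup 2 G).to_le inf_le_left)
      (fun x hx y hy => mem_centralizer_iff.1 hy.2 x hx.1)
      (fun x hx => Normal.conj_mem inferInstance x hx b) hy yb.symm
    exact Or.inl (C.caseA T hq.1 hq.2)

end Cfsg.Lib.Cub
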