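import Cfsg.Agent.Cub.D
import Cfsg.Agent.Solv.CoprimeFixed
import Cfsg.Agent.Solv.ExtraSub

/-!
# Four-groups normalised by an element of order three with a single cubic block: the reduction
-/

set_option autoImplicit false
set_option linter.unusedSectionVars false

namespace Cfsg.Lib.Cub

open Subgroup Cfsg.Lib.Solv
open scoped commutatorElement

variable {G V : Type*} [Group G] [AddCommGroup V] [Module K3 V] {ρ : Representation K3 G V}
  {b q : G} {R : Subgroup G}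

theorem rk_of (b3 : b ^ 3 = 1) {E₀ E₁ : Submodule K3 V} (h01 : E₀ ⊔ E₁ = ⊤)
    (h1 : ∀ v ∈ E₁, ρ b v = v) (h0 : ∀ v ∈ E₀, ρ b v ∈ E₀) (hc : Nat.card E₀ = 27) : Rk ρ b := by
  intro a c d
  by_contra hn
  push Not at hn
  have m : ∀ v, ∃ x ∈ E₀, ρ b v - v = ρ b x - x := fun v => by
    obtain ⟨x, hx, y, hy, rfl⟩ := Submodule.mem_sup.1 (h01 ▸ Submodule.mem_top : v ∈ E₀ ⊔ E₁)
    exact ⟨x, hx, by rw [map_add, h1 y hy, add_sub_add_right_eq_sub]⟩
  have m' : ∀ v, ρ b v - v ∈ E₀ := fun v => by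
    obtain ⟨x, hx, e⟩ := m v
    exact e ▸ E₀.sub_mem (h0 x hx) hx
  let f : K3 × K3 × K3 → E₀ := fun p => ⟨_, m' (p.1 • a + p.2.1 • c + p.2.2 • d)⟩
  have fi : Function.Injective f := fun p p' e => by
    by_contra ne
    have e' := congrArg Subtype.val e
    refine hn (p.1 - p'.1) (p.2.1 - p'.2.1) (p.2.2 - p'.2.2) (fun k1 k2 k3 => ne
      (Prod.ext (sub_eq_zero.1 k1) (Prod.ext (sub_eq_zero.1 k2) (sub_eq_zero.1 k3)))) ?_
    simp only [f, map_add, map_smul] at e' ⊢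
    linear_combination (norm := module) e'
  have : Finite E₀ := Nat.finite_of_card_ne_zero (by simp [hc])
  have fs := ((Nat.bijective_iff_injective_and_card f).2 ⟨fi, by simp [hc]⟩).2
  have s : ∀ e ∈ E₀, ∃ u ∈ E₀, e = ρ b u - u := fun e he => by
    obtain ⟨p, hp⟩ := fs ⟨e, he⟩
    obtain ⟨x, hx, k⟩ := m (p.1 • a + p.2.1 • c + p.2.2 • d)
    exact ⟨x, hx, (congrArg Subtype.val hp).symm.trans k⟩
  have z : E₀ = ⊥ := (Submodule.eq_bot_iff _).2 fun e he => by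
    obtain ⟨u₁, h₁, rfl⟩ := s e he
    obtain ⟨u₂, h₂, rfl⟩ := s u₁ h₁
    obtain ⟨u, hu, rfl⟩ := s u₂ h₂
    have r3 : ρ b (ρ b (ρ b u)) = u := by rw [← rmul, ← rmul, ← sq, ← pow_succ, b3, rone]
    simp only [map_sub, r3]
    linear_combination (norm := abel_nf) three (ρ b u) - three (ρ b (ρ b u))
  rw [z] at hc
  simp at hc

theorem mem_core [Finite G] [Group.IsSolvable G] (b3 : b ^ 3 = 1) (P : Sylow 3 G)
    (hb : ∀ x ∈ (P : Subgroup G), x * b = b * x) (T : Tri b q) :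
    q ∈ ⁅pPrimeCore 3 G, zpowers b⁆ := by
  have bO : b ∈ pPrimePCore 3 G :=
    (isPConstrained_of_isSolvable 3 G).centralizer_le P inf_le_left (mem_centralizer_iff.2 hb)
  have e : b * (b * q * b⁻¹) * b⁻¹ = ⁅q, b⁆ := by
    rw [← T.prod, commutatorElement_def, inv_eq_of_mul_eq_one_right T.sq]; group
  have e' : q = b * ⁅q, b⁆ * b⁻¹ := by rw [← e, c3 b3]
  have s3 : ⁅q, b⁆ ^ 2 = 1 := by rw [← e, conj_pow, conj_pow, sq, T.sq]; simp
  have cO : ⁅q, b⁆ ∈ pPrimePCore 3 G := mul_mem (Normal.conj_mem inferInstance b bO q) (inv_mem bO)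
  obtain ⟨k, hk⟩ := pCore_isPGroup 3 _ ⟨_, cO⟩
  have cH : ⁅q, b⁆ ∈ pPrimeCore 3 G := (QuotientGroup.eq_one_iff _).1
    (eq_one_of_pow (x := QuotientGroup.mk' (pPrimeCore 3 G) ⁅q, b⁆) (m := 2) (k := 3 ^ k)
      (by rw [← map_pow, s3, map_one]) (congrArg Subtype.val hk) (Nat.Coprime.pow_right k (by norm_num)))
  have qH : q ∈ pPrimeCore 3 G := e' ▸ Normal.conj_mem inferInstance _ cH b
  rw [e']
  exact (mem_normalizer_iff.1 (normalizer_commutator_ge_right _ _ (mem_zpowers b)) _).1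
    (commutator_mem_commutator qH (mem_zpowers b))

theorem red [Finite G] [Group.IsSolvable G] (inj : ∀ g : G, (∀ v, ρ g v = v) → g = 1)
    (b3 : b ^ 3 = 1) (rk : Rk ρ b) (cop : (Nat.card R).Coprime 3)
    (hN : zpowers b ≤ normalizer (R : Set G)) (hR : ⁅R, zpowers b⁆ = R) (hq : q ∈ R) (T : Tri b q) :
    ((IsElementaryAbelian 2 R ∧ Nat.card R = 4) ∨ (IsExtraspecial 2 R ∧ Nat.card R = 32 ∧
      ∃ A : Subgroup G, A ≤ R ∧ IsElementaryAbelian 2 A ∧ Nat.card A = 8)) ∧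
    ∃ F₀ F₁ : Submodule K3 V, F₀ ⊓ F₁ = ⊥ ∧ F₀ ⊔ F₁ = ⊤ ∧ (∀ r ∈ R, ∀ v ∈ F₁, ρ r v = v) ∧
      (∀ r ∈ R ⊔ zpowers b, ∀ v ∈ F₀, ρ r v ∈ F₀) ∧
      (∀ r ∈ R ⊔ zpowers b, (∀ v ∈ F₀, ρ r v = v) → r = 1) ∧
      (∀ N : Submodule K3 V, N ≤ F₀ → (∀ r ∈ R ⊔ zpowers b, ∀ v ∈ N, ρ r v ∈ N) →
        N = ⊥ ∨ N = F₀) := by
  classical
  have := Fintype.ofFinite R
  obtain ⟨v₁, v₂, v₃, F⟩ := T.exists_fr inj b3 rk
  have nX : R ⊔ zpowers b ≤ normalizer (R : Set G) := sup_le le_normalizer hN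
  have bX : b ∈ R ⊔ zpowers b := mem_sup_right (mem_zpowers b)
  have hq2 : b * q * b⁻¹ ∈ R := (mem_normalizer_iff.1 (nX bX) q).1 hq
  have gen : ∀ K : Subgroup G, (∀ r ∈ R, ∀ k ∈ K, r * k * r⁻¹ ∈ K) → b ∈ K → R ⊔ zpowers b ≤ K :=
    fun K h hb => sup_le (hR ▸ commutator_le.2 fun r hr x hx =>
      mul_mem (h r hr x (zpowers_le.2 hb hx)) (inv_mem (zpowers_le.2 hb hx))) (zpowers_le.2 hb)
  let fx : Submodule K3 V → Subgroup G := fun N =>
    { carrier := {g | ∀ v ∈ N, ρ g v = v}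
      mul_mem' := fun h1 h2 v hv => by rw [rmul, h2 v hv, h1 v hv]
      one_mem' := fun v _ => rone v
      inv_mem' := fun {g} h v hv => rinj (ρ := ρ) (g := g) (by rw [rinv', h v hv]) }
  let F₁ : Submodule K3 V :=
    { carrier := {v | ∀ r ∈ R, ρ r v = v}
      add_mem' := fun h1 h2 r hr => by rw [map_add, h1 r hr, h2 r hr]
      zero_mem' := fun r _ => map_zero _
      smul_mem' := fun c v h r hr => by rw [map_smul, h r hr] }
  let F₀ : Submodule K3 V := Submodule.span K3 {w | ∃ r ∈ R, ∃ v, w = ρ r v - v}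
  let π : V →ₗ[K3] V := ∑ r : R, ρ r
  have πa : ∀ v, π v = ∑ r : R, ρ r v := fun v => LinearMap.sum_apply _ _ _
  have n0 : (Fintype.card R : K3) ≠ 0 := fun e => by
    rw [← Nat.card_eq_fintype_card, ZMod.natCast_eq_zero_iff] at e
    exact absurd (Nat.eq_one_of_dvd_coprimes cop e dvd_rfl) (by norm_num)
  have π0 : F₀ ≤ LinearMap.ker π := Submodule.span_le.2 (by
    rintro _ ⟨r, hr, v, rfl⟩
    rw [SetLike.mem_coe, LinearMap.mem_ker, map_sub, sub_eq_zero, πa, πa]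
    exact Fintype.sum_equiv (Equiv.mulRight (⟨r, hr⟩ : R)) _ _ fun x => (rmul _ _ _).symm)
  have π1 : ∀ v, π v ∈ F₁ := fun v r hr => by
    rw [πa, map_sum]
    exact Fintype.sum_equiv (Equiv.mulLeft (⟨r, hr⟩ : R)) _ _ fun x => (rmul _ _ _).symm
  have d1 : F₀ ⊓ F₁ = ⊥ := (Submodule.eq_bot_iff _).2 fun v hv => by
    have e := π0 hv.1
    rw [LinearMap.mem_ker, πa, Finset.sum_congr rfl fun (r : R) _ => hv.2 r r.2, Finset.sum_const,
      ← Nat.cast_smul_eq_nsmul K3] at e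
    exact (smul_eq_zero.1 e).resolve_left n0
  have d2 : F₀ ⊔ F₁ = ⊤ := Submodule.eq_top_iff'.2 fun v => by
    have e : (Fintype.card R : K3) • v = π v - ∑ r : R, (ρ r v - v) := by
      rw [Finset.sum_sub_distrib, πa, sub_sub_cancel, Finset.sum_const, Nat.cast_smul_eq_nsmul]; rfl
    rw [← Submodule.smul_mem_iff _ n0, e]
    exact Submodule.sub_mem _ (Submodule.mem_sup_right (π1 v)) (Submodule.mem_sup_left
      (Submodule.sum_mem _ fun r _ => Submodule.subset_span ⟨r, r.2, v, rfl⟩))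
  have i0 : ∀ g ∈ R ⊔ zpowers b, F₀ ≤ F₀.comap (ρ g) := fun g hg => Submodule.span_le.2 (by
    rintro _ ⟨r, hr, v, rfl⟩
    exact Submodule.subset_span ⟨_, (mem_normalizer_iff.1 (nX hg) r).1 hr, ρ g v, by
      rw [map_sub, rconj]⟩)
  have f1 : R ⊔ zpowers b ≤ fx F₁ := sup_le (fun r hr v hv => hv r hr)
    (zpowers_le.2 fun v hv => F.fix0 (hv _ hq) (hv _ hq2))
  have fa : ∀ r ∈ R ⊔ zpowers b, (∀ v ∈ F₀, ρ r v = v) → r = 1 := fun r hr h => inj r fun v => by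
    obtain ⟨x, hx, y, hy, rfl⟩ := Submodule.mem_sup.1 (d2 ▸ Submodule.mem_top : v ∈ F₀ ⊔ F₁)
    rw [map_add, h x hx, f1 hr y hy]
  have ir : ∀ N : Submodule K3 V, N ≤ F₀ → (∀ r ∈ R ⊔ zpowers b, ∀ v ∈ N, ρ r v ∈ N) →
      N = ⊥ ∨ N = F₀ := fun N hl h => by
    rcases F.inv_sub N (h _ (mem_sup_left hq)) (h _ (mem_sup_left hq2)) (h _ bX) with k | k
    · have := gen (fx N) (fun r hr g hg v hv => by
        rw [rmul, rmul, hg _ (h _ (mem_sup_left (inv_mem hr)) v hv), rinv']) k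
      exact Or.inl (le_bot_iff.1 (d1 ▸ le_inf hl fun v hv r hr => this (mem_sup_left hr) v hv))
    · let K : Subgroup G :=
        { carrier := {g | ∀ v, ρ g v - v ∈ N}
          mul_mem' := fun {g g'} h1 h2 v => by
            rw [rmul, ← sub_add_sub_cancel _ (ρ g' v)]; exact N.add_mem (h1 _) (h2 _)
          one_mem' := fun v => by rw [rone, sub_self]; exact N.zero_mem
          inv_mem' := fun {g} h v => by
            have := N.neg_mem (h (ρ g⁻¹ v))
            rwa [rinv', neg_sub] at this }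
      have := gen K (fun r hr g hg v => by
        have := h r (mem_sup_left hr) _ (hg (ρ r⁻¹ v))
        rwa [map_sub, rinv', ← rmul, ← rmul] at this) k
      refine Or.inr (le_antisymm hl (Submodule.span_le.2 ?_))
      rintro _ ⟨r, hr, v, rfl⟩
      exact this (mem_sup_left hr) v
  refine ⟨?_, F₀, F₁, d1, d2, fun r hr v hv => hv r hr, i0, fa, ir⟩
  have dec : ∀ g : ↥(R ⊔ zpowers b), ∃ r ∈ R.subgroupOf (R ⊔ zpowers b), ∃ i : ℕ,
      g = r * ⟨b, bX⟩ ^ i := fun g => by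
    have hg : (g : G) ∈ ((R ⊔ zpowers b : Subgroup G) : Set G) := g.2
    rw [coe_mul_of_right_le_normalizer_left _ _ hN] at hg
    obtain ⟨r, hr, x, hx, e⟩ := hg
    obtain ⟨i, rfl⟩ := mem_powers_iff_mem_zpowers.2 hx
    exact ⟨⟨r, mem_sup_left hr⟩, hr, i, Subtype.ext e.symm⟩
  have eR := subgroupOfEquivOfLe (le_sup_left : R ≤ R ⊔ zpowers b)
  have cR := Nat.card_congr eR.toEquiv
  have C : Ctx (Representation.subrepresentation (ρ.comp (R ⊔ zpowers b).subtype) F₀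
      fun g => i0 g g.2) (R.subgroupOf (R ⊔ zpowers b)) ⟨b, bX⟩ :=
    { inj := fun g h => Subtype.ext (fa g g.2 fun v hv => congrArg Subtype.val (h ⟨v, hv⟩))
      b3 := Subtype.ext b3
      rk := fun a c d => by
        obtain ⟨x, y, z, h0, h⟩ := rk a c d
        exact ⟨x, y, z, h0, Subtype.ext h⟩
      nR := (normal_subgroupOf_iff_le_normalizer le_sup_left).2 nX
      cop := cR ▸ cop
      dec := dec
      gen := fun N hn hb g => by
        obtain ⟨x, hx, e⟩ := gen (N.map (R ⊔ zpowers b).subtype) (by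
          rintro r hr _ ⟨k, hk, rfl⟩
          exact ⟨_, hn.conj_mem k hk ⟨r, mem_sup_left hr⟩, rfl⟩) ⟨_, hb, rfl⟩ g.2
        exact (Subtype.ext e : x = g) ▸ hx
      irr := fun N h => by
        rcases ir (N.map F₀.subtype) (F₀.map_subtype_le N) (by
          rintro r hr _ ⟨v, hv, rfl⟩
          exact ⟨_, h ⟨r, hr⟩ v hv, rfl⟩) with e | e
        · exact Or.inl (Submodule.map_injective_of_injective F₀.injective_subtype
            (e.trans (Submodule.map_bot _).symm))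
        · exact Or.inr (Submodule.map_injective_of_injective F₀.injective_subtype
            (e.trans (Submodule.map_subtype_top _).symm))
      tri := ⟨⟨q, mem_sup_left hq⟩, fun e => T.ne (congrArg Subtype.val e), Subtype.ext T.sq,
        Subtype.ext T.prod⟩ }
  rcases C.main with ⟨h1, h2⟩ | ⟨h1, h2, A, h3, h4, h5⟩
  · exact Or.inl ⟨ea_of_sq fun x hx => (sq x).symm.trans
      (congrArg Subtype.val (h1.2 ⟨x, mem_sup_left hx⟩ hx)), cR ▸ h2⟩
  · refine Or.inr ⟨PG.isExtraspecial_of_mulEquiv eR h1, cR ▸ h2, A.map (R ⊔ zpowers b).subtype,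
      map_le_iff_le_comap.2 h3, ea_of_sq ?_, (card_map_of_injective (subtype_injective _)).trans h5⟩
    rintro _ ⟨x, hx, rfl⟩
    exact (sq _).symm.trans (congrArg Subtype.val (h4.2 x hx))

end Cfsg.Lib.Cub
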